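import Cfsg.Agent.Lib.TGC.Sig
import Cfsg.Agent.Lib.DD.Tools
import Cfsg.Agent.Lib.SF2.PP1
import Cfsg.Agent.Lib.FT.BG8

/-! The one-class theorem (plan, section OC). -/

set_option autoImplicit false

namespace Cfsg.Lib.TGC
open Subgroup MulAction Cfsg.Lib Cfsg.Lib.FT Cfsg.Lib.Bender
open scoped commutatorElement

variable {G Ω : Type*} [Group G] [MulAction G Ω] [Finite G]

/-- Bender's argument -/
theorem le_of_char {W X : Subgroup G} (hW : Odd (Nat.card W)) (hle : X ≤ W) (hX : X ≠ ⊥)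
    (hn : ∀ I ≤ X, I ≠ ⊥ → N[X] ≤ N[I] → W ⊓ N[I] ≤ X)
    (hp : ∀ p : ℕ, p.Prime → piCoreOf {p} X = ⊥ → piCoreOf {p} W = ⊥) : W ≤ X := by
  have sW := odd_order_solvable hW
  have sX := isSolvable_of_le hle sW
  have h1 : ∀ p : ℕ, p.Prime → piCoreOf {p} W ≤ piCoreOf {p} X := fun p pp => by
    have := Fact.mk pp
    by_cases e : piCoreOf {p} X = ⊥
    · rw [hp p pp e]; exact bot_le
    exact pp_le_of_normalizer (isPGroup_piCoreOf_singleton p X) (isPGroup_piCoreOf_singleton p W)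
      ((piCoreOf_le _ X).trans (hle.trans (le_normalizer_piCoreOf _ W))) ((le_inf inf_le_left
        ((inf_le_inf_right _ (piCoreOf_le _ W)).trans (hn _ (piCoreOf_le _ X) e
          (normalizer_le_normalizer_piCoreOf _ X)))).trans (piCoreOf_inf_le _ hle))
  have hF : fittingOf W ≤ fittingOf X := fit_le_of_forall fun p pp _ =>
    have := Fact.mk pp; (h1 p pp).trans (piCoreOf_singleton_le_fit p X)
  obtain ⟨p, pp, hP⟩ := exists_piCoreOf_singleton_ne_bot sX hX
  have := Fact.mk pp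
  by_cases hq : ∃ q : ℕ, q.Prime ∧ q ≠ p ∧ piCoreOf {q} X ≠ ⊥
  · obtain ⟨q, qp, hne, hQ⟩ := hq
    have := Fact.mk qp
    have z1 := inf_centralizer_ne_bot_of_isNilpotent (isNilpotent_fit X) (piCoreOf_singleton_le_fit q X)
      ((fittingOf_le X).trans (le_normalizer_piCoreOf _ X)) hQ
    have z2 := hn _ (inf_le_left.trans (piCoreOf_le _ X)) z1 (le_normalizer_inf
      (normalizer_le_normalizer_piCoreOf _ X)
      ((normalizer_le_normalizer_fit X).trans (normalizer_le_normalizer_centralizer _)))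
    have z3 : piCoreOf {q} X ⊓ C[fittingOf X] ≤ piCoreOf {q} W := le_piCoreOf_of_le_fit
      ((isPiSubgroup_piCoreOf _ X).of_le inf_le_left) ((inf_le_inf ((piCoreOf_le _ X).trans hle)
        (centralizer_le hF)).trans (inf_centralizer_fit_le sW))
    have k1 : W ⊓ C[piCoreOf {q} W] ≤ X :=
      (inf_le_inf_left _ ((centralizer_le z3).trans (centralizer_le_normalizer _))).trans z2
    have k2 : piCoreOf {p} X ≤ piCoreOf {p} W := (piCoreOf_le_piCoreOf_of_le k1 (le_inf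
      ((piCoreOf_le _ X).trans hle) ((piCoreOf_le_centralizer_compl _ X).trans (centralizer_le
        ((h1 q qp).trans (piCoreOf_mono (by simpa using hne.symm) X)))))).trans
      (piCoreOf_le_of_le_normalizer _ inf_le_left (le_normalizer_inf le_normalizer
        ((le_normalizer_piCoreOf _ W).trans (normalizer_le_normalizer_centralizer _))))
    exact (le_inf le_rfl (le_antisymm k2 (h1 p pp) ▸ le_normalizer_piCoreOf _ W)).trans
      (hn _ (piCoreOf_le _ X) hP (normalizer_le_normalizer_piCoreOf _ X))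
  push Not at hq
  have f1 : IsPGroup p (fittingOf X) := (isPGroup_piCoreOf_singleton p X).to_le (fit_le_of_forall
    fun q qp _ => by
      by_cases e : q = p
      · rw [e]
      · rw [hq q qp e]; exact bot_le)
  obtain ⟨P, hS⟩ := exists_isSylowIn p X
  have a1 := bg6_2_of_eq_bot (e := 0) sX (odd_of_le hW hle) hS (piCoreOf_compl_eq_bot_of_isPGroup_fit sX f1)
  have a2 := hn _ ((pgZ_le 0 P).trans hS.le) (pgZ_ne_bot (dvd_zero p) hS.isPGroup
    fun e => hP (eq_bot_iff.2 (e ▸ piCoreOf_le_isSylowIn hS))) fun g hg => by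
      obtain ⟨k, hk, e⟩ := hS.exists_mul_mem_normalizer hg
      simpa using mul_mem (a1 hk) (pg_normalizer_le_normalizer_pgZ 0 P e)
  refine (le_inf le_rfl (bg6_2_of_eq_bot sW hW ⟨hS.le.trans hle, hS.isPGroup, fun R hR h3 h4 => ?_⟩
    (piCoreOf_compl_eq_bot_of_isPGroup_fit sW (f1.to_le hF)))).trans a2
  refine le_antisymm (pp_le_of_normalizer hS.isPGroup hR (h4.trans le_normalizer) ?_) h4
  exact hS.le_of_le_normalizer hR.to_inf_left
    ((inf_le_inf h3 (pg_normalizer_le_normalizer_pgZ 0 P)).trans a2) inf_le_right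

/-- the largest subgroup of odd order normalized by `C(t)` -/
structure IsX (t : G) (X : Subgroup G) : Prop where
  odd : Odd (Nat.card X)
  norm : C1[t] ≤ N[X]
  max : ∀ Y : Subgroup G, Odd (Nat.card Y) → C1[t] ≤ N[Y] → Y ≤ X

omit [Finite G] in
theorem IsX.conj {t : G} {X : Subgroup G} (h : IsX t X) (g : G) : IsX (g * t * g⁻¹) (g •ᶜ X) :=
  ⟨by rw [card_conj]; exact h.odd, by rw [GW.c1_conj, normalizer_map_conj]; exact map_mono h.norm,
    fun Y h1 h2 => by
      rw [← inv_inv g, ← map_conj_le_iff]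
      refine h.max _ (by rwa [card_conj]) ?_
      rwa [normalizer_map_conj, ← map_conj_le_iff, ← GW.c1_conj]⟩

namespace OCHyp
variable (h : OCHyp G)
include h

theorem fn : Fun (centralizerPPrimeCore 2 (G := G)) := fun_cpc fun a b ha hb hc => by
  by_cases e : a = b
  · rw [e]; exact inf_le_left
  exact h.odd a b ha hb e hc _ (odd_of_le (odd_cpc a) inf_le_left) inf_le_right
    (le_normalizer_inf (inf_le_right.trans (cpc_norm a)) (inf_le_left.trans le_normalizer))

theorem le_cl {A Y : Subgroup G} (hA : IsElementaryAbelian 2 A) (h8 : 2 ^ 3 ≤ Nat.card A) {t : G} (ht : t ∈ A)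
    (t1 : t ≠ 1) (hY : Odd (Nat.card Y)) (hn : C1[t] ≤ N[Y]) :
    Y ≤ signalizerClosure A (centralizerPPrimeCore 2) := by
  refine (CoprimeAct.of_isPGroup (elemAb_isPGroup hA) (by rwa [← even_iff_two_dvd, Nat.not_even_iff_odd])
    (le_trans (fun a ha => mem_C1.2 (Quad.ea_comm hA ha ht)) hn)).le_of_elemAb hA (by omega)
    fun a ha a1 => le_trans ?_ (le_sigClosure ha a1)
  by_cases e : t = a
  · exact le_cpc (odd_of_le hY inf_le_left) inf_le_right (le_normalizer_inf (e ▸ hn) le_normalizer)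
  exact h.odd t a (isInv_of_ea hA ht t1) (isInv_of_ea hA ha a1) e (Quad.ea_comm hA ht ha) _
    (odd_of_le hY inf_le_left) inf_le_right
    (le_normalizer_inf (inf_le_right.trans hn) (inf_le_left.trans le_normalizer))

theorem exists_isX {t : G} (ht : IsInv t) : ∃ X, IsX t X := by
  obtain ⟨A, a1, a2, a3, -⟩ := h.exists_ge ht ht (Commute.refl t)
  exact ⟨sSup {Y | Odd (Nat.card Y) ∧ C1[t] ≤ N[Y]}, odd_of_le (h.fn.cl_spec a1 a2).1
    (sSup_le fun Y hY => h.le_cl a1 a2 a3 ht.1 hY.1 hY.2), by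
      rw [sSup_eq_iSup']; exact sft_le_normalizer_iSup fun Y => Y.2.2,
    fun Y h1 h2 => le_sSup ⟨h1, h2⟩⟩

theorem iso {t : G} (ht : IsInv t) {I : Subgroup G} (hI : Odd (Nat.card I)) (h1 : I ≠ ⊥) (hn : C1[t] ≤ N[I])
    {g : G} (hg : g ∈ N[I]) (hc : Commute t (g * t * g⁻¹)) : g * t * g⁻¹ = t := by
  by_contra hne
  have h2 := h.fus t ht _ hn ⟨g, hg, hne, hc⟩
  obtain ⟨A, a1, a2, -⟩ := h.exists_ge ht ht (Commute.refl t)
  obtain ⟨-, -, -, h3⟩ := Big.bender_local h.core (not_pRankLE_iff.2 ⟨A, a1, by omega⟩) (M := N[I])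
    ⟨fun e => h1 (eq_bot_of_odd_normal h.core hI e), by
      rw [← Nat.not_odd_iff_even]; exact fun e => ht.not_mem_of_odd e (hn (mem_C1.2 rfl)),
    fun k hk => odd_card_of_forall fun x hx ix => by
      obtain ⟨n, hn', e⟩ := h2 x hx.1 ix
      obtain ⟨m, hm, e'⟩ := h2 _ (mem_map_conj.1 hx.2) (ix.conj' k)
      have : m⁻¹ * k⁻¹ * n ∈ N[I] := hn (mem_C1.2 (by
        calc _ = m⁻¹ * (k⁻¹ * (n * t * n⁻¹) * k) * k⁻¹ * n := by group
          _ = _ := by rw [e, ← e']; group))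
      exact hk (by simpa using mul_mem (mul_mem hn' (inv_mem this)) (inv_mem hm))⟩
  refine h1 (eq_bot_iff.2 ((le_pPrimeCoreOf le_normalizer le_rfl (Nat.coprime_two_right.2 hI)).trans ?_))
  rw [show pPrimeCore 2 N[I] = ⊥ from h3, Subgroup.map_bot]

theorem cl_eq {A X : Subgroup G} (hA : IsElementaryAbelian 2 A) (h8 : 2 ^ 3 ≤ Nat.card A) {t : G} (ht : t ∈ A)
    (t1 : t ≠ 1) (hX : IsX t X) (h1 : X ≠ ⊥) : signalizerClosure A (centralizerPPrimeCore 2) = X := by
  obtain ⟨w1, w2, w3⟩ := h.fn.cl_spec hA h8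
  have it := isInv_of_ea hA ht t1
  have hle := h.le_cl hA h8 ht t1 hX.odd hX.norm
  refine le_antisymm (le_of_char w1 hle h1 (fun I i1 i2 i3 g hg => ?_) fun p pp hp => ?_) hle
  · have i4 := hX.norm.trans i3
    have o1 : piCoreOf {2}ᶜ N[I] ≤ X := hX.max _ (by
      rw [← Nat.not_even_iff_odd, even_iff_two_dvd]
      exact not_dvd_card_piCoreOf Nat.prime_two (by simp) _) (i4.trans (le_normalizer_piCoreOf _ _))
    obtain ⟨o, ho, c, hc, rfl⟩ := DD.exists_mul_c1 hX.odd it.2 (o1 (DD.zstar_in (i4 (mem_C1.2 rfl)) it.2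
      (fun k hk e => h.iso it (odd_of_le hX.odd i1) i2 i4 hk e) hg.2))
    exact mul_mem ho (hX.max _ (odd_cpc t) (cpc_norm t) ((w3 t ht t1).le
      ⟨by simpa using mul_mem (inv_mem (hle ho)) hg.1, hc⟩))
  · have := Fact.mk pp
    have o1 := odd_of_le w1 (piCoreOf_le {p} _)
    refine eq_bot_iff.2 ((CoprimeAct.of_isPGroup (elemAb_isPGroup hA)
      (by rwa [← even_iff_two_dvd, Nat.not_even_iff_odd]) (le_normalizer_piCoreOf_of_le _ w2)).le_of_elemAb hA
      (by omega) fun a ha a1 => ?_)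
    obtain ⟨g, rfl⟩ := h.one t a it (isInv_of_ea hA ha a1)
    have x1 := hX.conj g
    refine le_trans (le_inf inf_le_left ((inf_le_inf_right _ (piCoreOf_le _ _)).trans ((w3 _ ha a1).le.trans
      (x1.max _ (odd_cpc _) (cpc_norm _))))) ((piCoreOf_inf_le _
        (h.le_cl hA h8 ha a1 x1.odd x1.norm)).trans ?_)
    rw [piCoreOf_conj, hp, Subgroup.map_bot]

end OCHyp

theorem OCHyp.core_eq_bot (h : OCHyp G) {t : G} (ht : IsInv t) : centralizerPPrimeCore 2 t = ⊥ := by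
  obtain ⟨X, hX⟩ := h.exists_isX ht
  refine eq_bot_iff.2 ((hX.max _ (odd_cpc t) (cpc_norm t)).trans (le_of_eq (by_contra fun h1 => ?_)))
  obtain ⟨a, ha, hne, hc⟩ := h.four t ht
  obtain ⟨A, a1, a2, a3, a4⟩ := h.exists_ge ht ha hc
  obtain ⟨c, c1, c2, c3⟩ := h.mov t a ht ha hne hc
  obtain ⟨g, rfl⟩ := h.one t a ht ha
  have e := (h.cl_eq a1 a2 a3 ht.1 hX h1).symm.trans (h.cl_eq a1 a2 a4 ha.1 (hX.conj g)
    fun e => h1 ((map_eq_bot_iff_of_injective _ (MulAut.conj g).injective).1 e))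
  exact c2 (h.iso ht hX.odd h1 hX.norm (e ▸ (hX.conj g).norm (mem_C1.2 c1.eq)) c3)

end Cfsg.Lib.TGC
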