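import Cfsg.Agent.Lib.TGC.Flem
import Cfsg.Agent.Lib.DD.Tools

/-! Case (b): the Sylow 2-subgroup does not have order 64 (plan, section B2). -/

set_option autoImplicit false
set_option linter.unusedSectionVars false

namespace Cfsg.Lib.TGC
open Subgroup MulAction Cfsg.Lib Cfsg.Lib.FT Cfsg.Lib.Bender
open scoped commutatorElement

variable {G Ω : Type*} [Group G] [MulAction G Ω] [Finite G]

theorem exists_sq_mem {X : Subgroup G} (k : ℕ) : ∀ g : G, g ^ 2 ^ k ∈ X → g ∉ X →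
    ∃ i, g ^ i ∉ X ∧ g ^ i * g ^ i ∈ X := by
  induction k with
  | zero => exact fun g h h' => absurd (by simpa using h) h'
  | succ k ih =>
    intro g h h'
    by_cases e : g ^ 2 ∈ X
    · exact ⟨1, by simpa, by rwa [pow_one, ← pow_two]⟩
    · obtain ⟨i, h1, h2⟩ := ih (g ^ 2) (by rwa [← pow_mul, ← pow_succ']) e
      exact ⟨2 * i, by rwa [pow_mul], by rwa [pow_mul]⟩

theorem zp_iff {t b : G} (ht : IsInv t) : b ∈ zpowers t ↔ b = 1 ∨ b = t :=
  ⟨ZD.mem_zpowers_inv ht, by rintro (rfl | rfl); exacts [one_mem _, mem_zpowers _]⟩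

theorem zp_sq {t b : G} (ht : IsInv t) (h : b ∈ zpowers t) : b * b = 1 := by
  rcases (zp_iff ht).1 h with rfl | rfl
  exacts [mul_one 1, ht.2]

theorem zp_comm {t b x : G} (hx : x ∈ C1[t]) (h : b ∈ zpowers t) : x * b = b * x :=
  mem_C1.1 (C1_le_of_mem_zpowers h hx)

theorem c1_le_nzp (t : G) : C1[t] ≤ N[zpowers t] :=
  (centralizer_singleton_eq_zpowers t).le.trans (centralizer_le_normalizer _)

namespace St
variable {t u w : G} {T S R Q J O : Subgroup G} {α : Ω} (h : St Ω t u w T S R Q J O α)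
include h

theorem QS : Q ≤ S := fun y hy => ((h.benS.mem y).1 hy).1

theorem RS : R ≤ S := fun y hy => ((h.memR y).1 hy).1

theorem SC : S ≤ C1[t] := h.ST.trans h.TC

theorem hq : ∀ q ∈ Q, q = 1 ∨ q = t ∨ q * q = t := fun q hq =>
  ((h.benS.mem q).1 hq).2.2.imp_right (Or.imp_right And.left)

theorem sqQ {q : G} (hq : q ∈ Q) (h1 : q ∉ zpowers t) : q * q = t :=
  ((h.hq q hq).resolve_left fun e => h1 (e ▸ one_mem _)).resolve_left fun e => h1 (e ▸ mem_zpowers t)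

theorem ww (x : G) : w * (w * x * w) * w = x := by
  rw [← mul_assoc, ← mul_assoc, h.winv.2, one_mul, mul_assoc, h.winv.2, mul_one]

theorem wmul (x y : G) : w * (x * y) * w = w * x * w * (w * y * w) := by
  calc _ = w * x * (w * w) * y * w := by rw [h.winv.2]; group
    _ = _ := by group

theorem wz {x : G} (hx : x ∈ zpowers t) : w * x * w = x := by
  rw [zp_comm (h.TC h.wT) hx, mul_assoc, h.winv.2, mul_one]

theorem wQ {q : G} (hq : q ∈ Q) : w * q * w ∈ R := (h.wR _).1 (by rwa [h.ww])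

theorem wR' {r : G} (hr : r ∈ R) : w * r * w ∈ Q := (h.wR _).2 hr

theorem sqR {r : G} (hr : r ∈ R) (h1 : r ∉ zpowers t) : r * r = t := by
  have := h.sqQ (h.wR' hr) fun e => h1 (by rwa [← h.ww r, h.wz e])
  rw [← h.ww (r * r), h.wmul r, this, h.wz (mem_zpowers t)]

theorem hr : ∀ r ∈ R, r = 1 ∨ r = t ∨ r * r = t := fun r hr => by
  by_cases e : r ∈ zpowers t
  · exact ((zp_iff h.inv).1 e).imp_right .inl
  · exact .inr (.inr (h.sqR hr e))

theorem comm {r q : G} (hr : r ∈ R) (hq : q ∈ Q) : r * q = q * r :=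
  h.benS.comm r (h.RS hr) (mem_Kr.2 ⟨h.sylu.le (h.RS hr), ((h.memR r).1 hr).2⟩) q hq

theorem sw {q r' : G} (r q' : G) (hq : q ∈ Q) (hr : r' ∈ R) : r * q * (r' * q') = r * r' * (q * q') := by
  rw [mul_assoc, ← mul_assoc q, ← h.comm hr hq]; group

theorem uS : u ∈ S := h.sylu.le_of_normalizes (isPGroup_zpowers_of_pow_eq_one (k := 2) (by
  rw [show 2 ^ 2 = 2 * 2 from rfl, pow_mul, pow_two, pow_two, h.sq, h.inv.2])) le_normalizer h.sylu.le
    (mem_zpowers u)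

theorem exβ : ∃ β : Ω, u • β = β ∧ β ≠ α := by
  obtain ⟨a, b, h1, h2, h3⟩ := h.ben.two
  by_cases e : a = α
  · exact ⟨b, h3, fun e' => h1 (e.trans e'.symm)⟩
  · exact ⟨a, h2, e⟩

theorem nfix {q : G} (hq : q ∈ Q) {β : Ω} (h1 : u • β = β) (h2 : β ≠ α) (h3 : q • β = β) :
    q ∈ zpowers t := by
  obtain ⟨a, b, c⟩ := (h.benS.mem q).1 hq
  exact (zp_iff h.inv).2 (c.imp_right fun c => c.resolve_right fun c =>
    c.2 (h.benS.reg2 q a b β h1 h2 h3))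

theorem inter {x : G} (hr : x ∈ R) (hq : x ∈ Q) : x ∈ zpowers t := by
  obtain ⟨β, h1, h2⟩ := h.exβ
  exact h.nfix hq h1 h2 (((h.memR x).1 hr).2 β h1)

theorem exQ : ∃ x ∈ Q, x ∉ zpowers t := h.benS.rank.imp fun _ e => ⟨e.1, e.2.choose_spec.2.1⟩

theorem zQ : zpowers t ≤ Q := by
  obtain ⟨x, h1, h2⟩ := h.exQ
  exact zpowers_le.2 (h.sqQ h1 h2 ▸ mul_mem h1 h1)

theorem zR : zpowers t ≤ R := fun x hx => h.wz hx ▸ h.wQ (h.zQ hx)

theorem fixR' {r : G} (hr : r ∈ R) (h1 : r ∉ zpowers t) (a : Ω) : r • a = a ↔ u • a = a :=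
  ⟨h.fixR r hr h1 a, ((h.memR r).1 hr).2 a⟩

theorem Q_rs : Q ≤ DD.rs C1[t] := by
  have k : ∀ x ∈ Q, x ∉ zpowers t → x ∈ DD.rs C1[t] ∧ t ∈ DD.rs C1[t] := fun x hx x1 => by
    have x2 := h.sqQ hx x1
    obtain ⟨y, hy, y2, e⟩ := exists_anti h.inv.2 h.hq (h.benS.q8 rfl).1 hx x2
    have n1 : x * y ≠ y * x := fun e' => h.inv.1 (by simpa [e'] using e)
    obtain ⟨k, k1, k2, -, k3⟩ := h.benS.tor y hy _ (mul_mem hx hy)
      (fun e => n1 (zp_comm (h.SC (h.QS hx)) e)) fun e => n1 (by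
        have := zp_comm (h.SC (h.QS hx)) e
        rw [mul_assoc] at this
        exact mul_left_cancel this)
    have k4 := DD.mem_rs (h.ben.NC (h.ben.JN k1)) k2
    have k5 : k * y * k⁻¹ * y⁻¹ ∈ DD.rs C1[t] := mem_of_mem_of_eq (mul_mem k4
      (conj_mem_of_le_normalizer (DD.le_rs_norm _) (h.SC (h.QS hy)) (inv_mem k4))) (by group)
    rcases k3 with e3 | e3
    · rw [e3, mul_inv_cancel_right] at k5
      exact ⟨k5, mem_of_mem_of_eq (mul_mem k5 k5) x2⟩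
    · rw [e3, mul_assoc x, mem_C1.1 (h.SC (h.QS hy)), ← mul_assoc, mul_inv_cancel_right] at k5
      have k6 := mul_mem k5 k5
      rw [mul_assoc, ← mul_assoc t, ← mem_C1.1 (h.SC (h.QS hx)), mul_assoc, h.inv.2, mul_one, x2] at k6
      exact ⟨(mul_mem_cancel_right k6).1 k5, k6⟩
  obtain ⟨x, h1, h2⟩ := h.exQ
  exact fun y hy => by_contra fun e => e (k y hy fun e' => e (zpowers_le.2 (k x h1 h2).2 e')).1

theorem v_mul (r : G) {s : G} (hr : r ∈ R) (hs : s ∈ R) :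
    r * (w * r * w) * (s * (w * s * w)) = r * s * (w * (r * s) * w) := by
  rw [h.sw _ _ (h.wR' hr) hs, h.wmul]

theorem v_sq {r : G} (hr : r ∈ R) : r * (w * r * w) * (r * (w * r * w)) = 1 := by
  have e : r * r ∈ zpowers t := by
    rcases h.hr r hr with e | e | e <;> simp [e, h.inv.2]
  rw [h.v_mul r hr hr, h.wz e, zp_sq h.inv e]

theorem v_comm {r : G} (hr : r ∈ R) : r * (w * r * w) * w = w * (r * (w * r * w)) := by
  nth_rewrite 1 [h.comm hr (h.wR' hr)]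
  group

theorem nz {r : G} (hr : r ∈ R) (e : w * r * w ∈ R) : r ∈ zpowers t := by
  have := h.inter e (h.wR' hr)
  rwa [← h.ww r, h.wz this]

variable (hS : S ≤ R ⊔ Q)
include hS

theorem dec {x : G} (hx : x ∈ S) : ∃ r ∈ R, ∃ q ∈ Q, r * q = x :=
  (mem_sup_of_le_normalizer (le_trans (fun _ hq => mem_centralizer_iff.2 fun _ hr => h.comm hr hq)
    (centralizer_le_normalizer _))).1 (hS hx)

theorem S_rs : S ≤ DD.rs C1[t] := hS.trans (sup_le (fun r hr => by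
  have := conj_mem_of_le_normalizer (DD.le_rs_norm _) (h.TC h.wT) (h.Q_rs (h.wR' hr))
  rwa [h.winv.inv_eq, h.ww] at this) h.Q_rs)

theorem cS {x y : G} (hx : x ∈ S) (hy : y ∈ S) : ⁅x, y⁆ ∈ zpowers t := by
  have k : ∀ {X : Subgroup G}, X ≤ S → (∀ q ∈ X, q = 1 ∨ q = t ∨ q * q = t) → ⁅X, X⁆ ≤ zpowers t :=
    fun hX hq => commutator_le.2 fun a ha b hb => by
      rcases comm_mod h.inv.2 (fun q e => mem_C1.1 (h.SC (hX e))) hq ha hb with e | e
      · rw [commutatorElement_eq_one_iff_mul_comm.2 e]; exact one_mem _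
      · rw [commutatorElement_def, e, mem_C1.1 (h.SC (hX (mul_mem hb ha)))]
        simp [mul_assoc]
  have k2 : ⁅R, Q⁆ ≤ zpowers t := commutator_le.2 fun a ha b hb => by
    rw [commutatorElement_eq_one_iff_mul_comm.2 (h.comm ha hb)]; exact one_mem _
  have n1 := h.RS.trans (h.SC.trans (c1_le_nzp t))
  have n2 := h.QS.trans (h.SC.trans (c1_le_nzp t))
  exact commutator_sup_le_left n1 n2 (commutator_sup_le_right n1 n2 (k h.RS h.hr) k2)
    (commutator_sup_le_right n1 n2 (commutator_comm R Q ▸ k2) (k h.QS h.hq))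
    (commutator_mem_commutator (hS hx) (hS hy))

theorem root {x : G} (hx : x ∈ T) (e : x * x = t) : x ∈ R ∨ x ∈ Q := by
  rcases h.dich x hx with e1 | e1
  · obtain ⟨r, hr, q, hq, rfl⟩ := h.dec hS e1
    by_cases q0 : q ∈ zpowers t
    · exact .inl (mul_mem hr (h.zR q0))
    rw [h.sw _ _ hq hr, h.sqQ hq q0, mul_eq_right] at e
    refine .inr (mul_mem (h.zQ (by_contra fun r0 => h.inv.1 ?_)) hq)
    rw [← h.sqR hr r0, e]
  exfalso
  obtain ⟨r, hr, q, hq, e2⟩ := h.dec hS e1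
  have e3 : r * (w * q * w) * (q * (w * r * w)) = t := by
    rw [← h.sw _ _ hq (h.wQ hq), h.comm (h.wQ hq) (h.wR' hr), ← h.wmul, e2, ← e, mul_assoc x, mul_assoc _ _ w,
      mul_assoc x, h.winv.2, mul_one, ← mul_assoc w, h.winv.2, one_mul]
  have a1 := h.inter (mul_mem hr (h.wQ hq)) ((mul_mem_cancel_right (mul_mem hq (h.wR' hr))).1
    (e3 ▸ h.zQ (mem_zpowers t)))
  have a2 := h.wz a1
  rw [h.wmul, h.ww] at a2
  have a3 : q * (w * r * w) = r * (w * q * w) := mul_right_cancel (b := q) (by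
    rw [← zp_comm (h.SC (h.QS hq)) a1, ← a2, mul_assoc])
  rw [a3, zp_sq h.inv a1] at e3
  exact h.inv.1 e3.symm

/-- an element of `C(t)` centralizing modulo `t` a square root of `t` lies in `O²(C(t))` -/
theorem mem_rs {y g : G} (e : y * y = t) (hg : g ∈ C1[t]) (hc : ⁅g, y⁆ ∈ zpowers t) : g ∈ DD.rs C1[t] := by
  have hy : y ∈ C1[t] := mem_C1.2 (by rw [← e, mul_assoc])
  obtain ⟨k, hk, h1⟩ : ∃ k ∈ C1[t], k * y * k⁻¹ ∈ R := by
    obtain ⟨k, hk, h1⟩ := (h.syl.mono h.TC le_top).exists_conj_le (isPGroup_zpowers_of_pow_eq_one (k := 2)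
      (by rw [show 2 ^ 2 = 2 * 2 from rfl, pow_mul, pow_two, pow_two, e, h.inv.2])) (zpowers_le.2 hy)
    rcases h.root hS (h1 (conj_mem_conj (mem_zpowers y) k)) (by
      rw [conj_mul, e, mem_C1.1 hk, mul_inv_cancel_right]) with h2 | h2
    · exact ⟨k, hk, h2⟩
    · exact ⟨w * k, mul_mem (h.TC h.wT) hk, mem_of_mem_of_eq (h.wQ h2) (by
        rw [mul_inv_rev, h.winv.inv_eq]; group)⟩
  have e1 : k * y * k⁻¹ * (k * y * k⁻¹) = t := by rw [conj_mul, e, mem_C1.1 hk, mul_inv_cancel_right]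
  have h2 : k * y * k⁻¹ ∉ zpowers t := fun e' => h.inv.1 (e1.symm.trans (zp_sq h.inv e'))
  have h3 : ⁅k * g * k⁻¹, k * y * k⁻¹⁆ ∈ zpowers t := by
    rw [← conjugate_commutatorElement]
    exact conj_mem_of_le_normalizer (c1_le_nzp t) hk hc
  have h4 : k * g * k⁻¹ ∈ NL Ω t u := ⟨mem_C1.1 (mul_mem (mul_mem hk hg) (inv_mem hk)), fun a => by
    generalize k * g * k⁻¹ = g, k * y * k⁻¹ = y at *
    rw [← h.fixR' (mul_mem (h.zR h3) h1) (fun e => h2 ((mul_mem_cancel_left h3).1 e)), ← h.fixR' h1 h2,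
      commutatorElement_def, inv_mul_cancel_right, mul_smul, inv_smul_smul, mul_smul,
      smul_left_cancel_iff]⟩
  obtain ⟨a, ha, s, hs, e2⟩ := DD.exists_rs_mul h.sylL h4
  have h5 : k * g * k⁻¹ ∈ DD.rs C1[t] :=
    e2 ▸ mul_mem (DD.rs_mono (X := NL Ω t u) (fun x hx => mem_C1.2 hx.1) ha) (h.S_rs hS hs)
  exact mem_of_mem_of_eq (conj_mem_of_le_normalizer' (DD.le_rs_norm _) hk h5) (by group)

/-- `S` contains no elementary abelian group of order 16 containing `t` -/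
theorem no16 {x y z : G} (hx : x ∈ S) (hy : y ∈ S) (hz : z ∈ S)
    (k : ∀ a ∈ [x, y, z, x * y, x * z, y * z, x * (y * z)], a * a = 1 ∧ a ∉ zpowers t) : False := by
  obtain ⟨r₁, hr₁, q₁, hq₁, rfl⟩ := h.dec hS hx
  obtain ⟨r₂, hr₂, q₂, hq₂, rfl⟩ := h.dec hS hy
  obtain ⟨r₃, hr₃, q₃, hq₃, rfl⟩ := h.dec hS hz
  have L : ∀ {r q}, r ∈ R → q ∈ Q → r * q * (r * q) = 1 ∧ r * q ∉ zpowers t → q * q = t :=
    fun hr hq e => h.sqQ hq fun e' => h.inv.1 ((h.sqR (mul_mem hr (h.zR e')) e.2).symm.trans e.1)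
  rw [h.sw _ _ hq₁ hr₂, h.sw _ _ hq₁ hr₃, h.sw _ _ hq₂ hr₃, h.sw _ _ hq₁ (mul_mem hr₂ hr₃)] at k
  have e1 := L hr₁ hq₁ (k _ (by simp))
  have e2 := anti_of_sq h.inv.2 e1 (L hr₂ hq₂ (k _ (by simp)))
    (L (mul_mem hr₁ hr₂) (mul_mem hq₁ hq₂) (k _ (by simp)))
  have e3 := anti_of_sq h.inv.2 e1 (L hr₃ hq₃ (k _ (by simp)))
    (L (mul_mem hr₁ hr₃) (mul_mem hq₁ hq₃) (k _ (by simp)))
  have e4 := anti_of_sq h.inv.2 e1 (L (mul_mem hr₂ hr₃) (mul_mem hq₂ hq₃) (k _ (by simp)))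
    (L (mul_mem hr₁ (mul_mem hr₂ hr₃)) (mul_mem hq₁ (mul_mem hq₂ hq₃)) (k _ (by simp)))
  rw [← mul_assoc, e2, mul_assoc _ t, ← mem_C1.1 (h.SC (h.QS hq₃)), ← mul_assoc, mul_assoc q₂, e3,
    mul_left_inj, ← mul_assoc, ← mul_assoc, mul_eq_left] at e4
  exact h.inv.1 e4

theorem w_not_mem : w ∉ S := fun hw => by
  obtain ⟨x, h1, h2⟩ := h.exQ
  have h3 := mul_mem (h.zQ (h.cS hS hw (h.QS h1))) h1
  rw [commutatorElement_def, inv_mul_cancel_right, h.winv.inv_eq] at h3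
  have := h.inter (h.wQ h1) h3
  exact h2 (by rwa [← h.ww x, h.wz this])

theorem w_not_rs : w ∉ DD.rs C1[t] := by
  rintro ⟨⟨w', hw⟩, h1, rfl : w' = w⟩
  have w0 := h.w_not_mem hS
  have hT := h.syl.mono h.TC le_top
  obtain ⟨P, hP⟩ := hT.exists_sylow'
  obtain ⟨g, g1, g2⟩ := thompson_transfer_extremal P (M := S.subgroupOf C1[t])
    (hP ▸ comap_mono h.ST) (by
      rw [hP, relIndex_subgroupOf h.TC]
      refine index_eq_two_iff.2 ⟨⟨w', h.wT⟩, fun a => ?_⟩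
      rw [mem_subgroupOf, mem_subgroupOf, coe_mul]
      by_cases e : (a : G) ∈ S
      · exact .inr ⟨e, fun e' => w0 ((mul_mem_cancel_left e).1 e')⟩
      · exact .inl ⟨(h.dich a a.2).resolve_left e, e⟩) (t := ⟨w', hw⟩)
    (Subtype.ext h.winv.sq) h1
  obtain ⟨k, hk, g3⟩ := g2.exists_conj_le (U := g •ᶜ ((P : Subgroup C1[t]) ⊓ C1[(⟨w', hw⟩ : C1[t])]))
    (P.isPGroup'.to_inf_left.map _) (by rw [c1_cj]; exact map_mono inf_le_right)
  obtain ⟨p, hp, a1, a2⟩ : ∃ p ∈ C1[t], p * w' * p⁻¹ ∈ S ∧ ∀ x ∈ T, x * w' = w' * x → p * x * p⁻¹ ∈ T := by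
    refine ⟨k * g, mul_mem k.2 g.2, mem_of_mem_of_eq (mem_subgroupOf.1 g1) ?_, fun x hx e => ?_⟩
    · have : (k : G) * (g * w' * (g : G)⁻¹) = g * w' * (g : G)⁻¹ * k := congrArg Subtype.val (mem_C1.1 hk)
      calc (g : G) * w' * (g : G)⁻¹ = k * (g * w' * (g : G)⁻¹) * (k : G)⁻¹ := by rw [this]; group
        _ = _ := by group
    · have := (g3 (conj_mem_conj (conj_mem_conj (x := ⟨x, h.TC hx⟩)
        (mem_inf.2 ⟨hP.ge hx, mem_C1.2 (Subtype.ext e)⟩) g) k)).1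
      rw [hP] at this
      exact mem_of_mem_of_eq (mem_subgroupOf.1 this) (by simp [mul_assoc])
  clear g3 hk k g1 g2 g hP P h1
  have vS : ∀ {r}, r ∈ R → r * (w' * r * w') ∈ S := fun hr => mul_mem (h.RS hr) (h.QS (h.wR' hr))
  have vT : ∀ {r}, r ∈ R → p * (r * (w' * r * w')) * p⁻¹ ∈ T := fun hr => a2 _ (h.ST (vS hr)) (h.v_comm hr)
  have pz : ∀ {x}, p * x * p⁻¹ ∈ zpowers t → x ∈ zpowers t := fun e =>
    mem_of_mem_of_eq (conj_mem_of_le_normalizer' (c1_le_nzp t) hp e) (by group)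
  have k1 : ∀ {r}, r ∈ R → r ∉ zpowers t → p * (r * (w' * r * w')) * p⁻¹ * (p * (r * (w' * r * w')) * p⁻¹) = 1 ∧
      p * (r * (w' * r * w')) * p⁻¹ ∉ zpowers t := fun hr e => ⟨DD.conj_conj_mul (h.v_sq hr) p,
    fun e' => e (h.nz hr ((mul_mem_cancel_left hr).1 (h.zR (pz e'))))⟩
  have k2 : ∀ {r}, r ∈ R → p * (w' * (r * (w' * r * w'))) * p⁻¹ * (p * (w' * (r * (w' * r * w'))) * p⁻¹) = 1 ∧
      p * (w' * (r * (w' * r * w'))) * p⁻¹ ∉ zpowers t := fun hr => ⟨DD.conj_conj_mul (by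
        nth_rewrite 2 [← h.v_comm hr]
        rw [← mul_assoc, mul_assoc w', h.v_sq hr, mul_one, h.winv.2]) p,
    fun e' => w0 ((mul_mem_cancel_right (vS hr)).1 (h.RS (h.zR (pz e'))))⟩
  obtain ⟨x, hx, y, hy, x0, y0, xy⟩ := h.benS.rank
  have nz : ∀ {q}, q ∈ Q → q ∉ zpowers t → w' * q * w' ∉ zpowers t := fun {q} _ e e' =>
    e (by rwa [← h.ww q, h.wz e'])
  have x1 := h.wQ hx
  have y1 := h.wQ hy
  have x2 := nz hx x0
  have y2 := nz hy y0
  have xy2 := nz (mul_mem hx hy) xy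
  rw [h.wmul] at xy2
  generalize w' * x * w' = r₁ at x1 x2 xy2
  generalize w' * y * w' = r₂ at y1 y2 xy2
  obtain ⟨s, hs, s1⟩ : ∃ s ∈ R, p * (s * (w' * s * w')) * p⁻¹ ∉ S := by
    by_contra hn
    push Not at hn
    refine h.no16 hS a1 (hn _ x1) (hn _ y1) ?_
    simp only [conj_mul, h.v_mul r₁ x1 y1, List.forall_mem_cons, List.not_mem_nil, false_imp_iff,
      implies_true, and_true]
    simp only [conj_mul] at k1 k2
    exact ⟨by simpa [h.winv.2] using k2 (one_mem R), k1 x1 x2, k1 y1 y2, k2 x1, k2 y1, k1 (mul_mem x1 y1) xy2,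
      k2 (mul_mem x1 y1)⟩
  obtain ⟨r, hr, r0, r1⟩ : ∃ r ∈ R, r ∉ zpowers t ∧ p * (r * (w' * r * w')) * p⁻¹ ∈ S := by
    rcases h.dich _ (vT x1) with e1 | e1
    · exact ⟨_, x1, x2, e1⟩
    rcases h.dich _ (vT y1) with e2 | e2
    · exact ⟨_, y1, y2, e2⟩
    refine ⟨_, mul_mem x1 y1, xy2, mem_of_mem_of_eq (mul_mem e1 (h.wS _ e2)) ?_⟩
    rw [← h.v_mul r₁ x1 y1, ← conj_mul (a := r₁ * (w' * r₁ * w'))]
    generalize p * (r₁ * (w' * r₁ * w')) * p⁻¹ = a, p * (r₂ * (w' * r₂ * w')) * p⁻¹ = b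
    calc _ = a * (w' * w') * b * (w' * w') := by group
      _ = _ := by rw [h.winv.2, mul_one, mul_one]
  have k3 : ∀ y, p * y * p⁻¹ ∈ S → y * (s * (w' * s * w')) = s * (w' * s * w') * y →
      p * y * p⁻¹ ∈ commInto (zpowers t) T := fun y y1 y2 => ⟨c1_le_nzp t (h.SC y1), fun g hg => by
    rcases h.dich g hg with e | e
    · exact h.cS hS y1 e
    have e1 := mul_mem e (inv_mem ((h.dich _ (vT hs)).resolve_left s1))
    have e2 : p * y * p⁻¹ * (p * (s * (w' * s * w')) * p⁻¹) = p * (s * (w' * s * w')) * p⁻¹ * (p * y * p⁻¹) := by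
      rw [conj_mul, conj_mul, y2]
    generalize p * y * p⁻¹ = a, p * (s * (w' * s * w')) * p⁻¹ = b at *
    refine mem_of_mem_of_eq (h.cS hS y1 e1) ?_
    calc _ = a * g * (b⁻¹ * a⁻¹) * b * g⁻¹ := by rw [commutatorElement_def]; group
      _ = _ := by rw [← mul_inv_rev, e2, commutatorElement_def]; group⟩
  obtain ⟨W, hW⟩ : ∃ W, W = closure {t, p * w' * p⁻¹, p * (r * (w' * r * w')) * p⁻¹} := ⟨_, rfl⟩
  have m1 : t ∈ W := hW ▸ subset_closure (by simp)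
  have m2 : p * w' * p⁻¹ ∈ W := hW ▸ subset_closure (by simp)
  have m3 : p * (r * (w' * r * w')) * p⁻¹ ∈ W := hW ▸ subset_closure (by simp)
  have m4 : W ≤ commInto (zpowers t) T := by
    rw [hW, closure_le]
    rintro _ (rfl | rfl | rfl)
    · exact ⟨le_normalizer (mem_zpowers _), fun g hg => by
        rw [commutatorElement_eq_one_iff_mul_comm.2 (mem_C1.1 (h.TC hg)).symm]; exact one_mem _⟩
    · exact k3 _ a1 (h.v_comm hs).symm
    · refine k3 _ r1 ?_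
      rw [eq_inv_of_mul_eq_one_left (h.v_mul r hr hs ▸ h.v_sq (mul_mem hr hs) :), mul_inv_rev,
        inv_eq_of_mul_eq_one_right (h.v_sq hr), inv_eq_of_mul_eq_one_right (h.v_sq hs)]
  have m5 : T ≤ N[W] := fun g hg => pg_mem_normalizer_of_conj_mem fun x hx =>
    mem_of_mem_of_eq (mul_mem (inv_mem (zpowers_le.2 m1 ((m4 hx).2 g hg))) hx)
      (by rw [commutatorElement_def]; group)
  have r2 := h.sqR hr r0
  have f1 : p * r * p⁻¹ ∈ C1[t] := mul_mem (mul_mem hp (h.SC (h.RS hr))) (inv_mem hp)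
  have f2 : p * r * p⁻¹ ∈ N[W] := pg_mem_normalizer_of_conj_mem fun x hx => by
    refine mem_map_conj.1 ((?_ : W ≤ (p * r * p⁻¹)⁻¹ •ᶜ W) hx) |> fun e => by simpa using e
    nth_rewrite 1 [hW]
    rw [closure_le]
    rintro _ (rfl | rfl | rfl) <;> rw [SetLike.mem_coe, mem_map_conj, inv_inv]
    · rwa [mem_C1.1 f1, mul_inv_cancel_right]
    · refine mem_of_mem_of_eq (mul_mem (mul_mem m3 m2) m1) ?_
      rw [conj_mul, mul_assoc _ _ t, mem_C1.1 (inv_mem hp), mul_assoc r, mul_assoc _ w', h.winv.2, mul_one,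
        ← inv_eq_of_mul_eq_one_right h.inv.2, ← r2]
      group
    · refine mem_of_mem_of_eq m3 ?_
      rw [conj_mul, h.comm hr (h.wR' hr), ← mul_assoc r, h.comm hr (h.wR' hr)]
      group
  obtain ⟨k, hk, k4⟩ := (h.syl.mono (le_inf m5 h.TC) le_top).exists_conj_le
    (isPGroup_zpowers_of_pow_eq_one (k := 2) (x := p * r * p⁻¹) (by
      rw [conj_pow, show 2 ^ 2 = 2 * 2 from rfl, pow_mul, pow_two, pow_two, r2, h.inv.2]; group))
    (zpowers_le.2 ⟨f2, f1⟩)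
  have k5 := (m4 (conj_mem_of_mem_normalizer hk.1 m2)).2 _ (k4 (conj_mem_conj (mem_zpowers _) k))
  rw [← conjugate_commutatorElement, ← conjugate_commutatorElement] at k5
  have k6 := pz (mem_of_mem_of_eq (conj_mem_of_le_normalizer' (c1_le_nzp t) hk.2 k5)
    (y := p * ⁅w', r⁆ * p⁻¹) (by group))
  have k7 := mul_mem (h.zR k6) hr
  rw [commutatorElement_def, inv_mul_cancel_right, h.winv.inv_eq] at k7
  exact r0 (h.nz hr k7)

end St

theorem St.not_le (C : Ctx G Ω) {t u w : G} {T S R Q J O : Subgroup G} {α : Ω}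
    (h : St Ω t u w T S R Q J O α) : ¬ S ≤ R ⊔ Q := fun hS => by
  have w0 := h.w_not_rs hS
  have hw := h.TC h.wT
  have t0 := h.zQ.trans h.Q_rs
  obtain ⟨β, b1, b2⟩ := h.exβ
  obtain ⟨j, hj, b3⟩ := h.ben.tr α β (h.fix u (h.ST h.uS)) b1
  obtain ⟨x, x1, x2⟩ := h.exQ
  have j1 := h.ben.NC (h.ben.JN hj)
  obtain ⟨q, hq⟩ : ∃ q, q = j * x * j⁻¹ := ⟨_, rfl⟩
  have q1 : q * q = t := by rw [hq, conj_mul, h.sqQ x1 x2, mem_C1.1 j1, mul_inv_cancel_right]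
  have q2 : q ∈ DD.rs C1[t] := hq ▸ conj_mem_of_le_normalizer (DD.le_rs_norm _) j1 (h.Q_rs x1)
  have q3 : q • α ≠ α := fun e => x2 (h.nfix x1 (β := j⁻¹ • α) (by
    rw [← mul_smul, ← mem_C1.1 (inv_mem (h.ben.Jc hj)), mul_smul, h.fix u (h.ST h.uS)])
    (fun e' => b2 (by rw [← b3]; exact (inv_smul_eq_iff.1 e').symm)) (by
      rw [← mul_smul, eq_inv_smul_iff, ← mul_smul, ← mul_assoc, ← hq, e]))
  have q4 := DD.rs_le _ q2
  have r1 := mul_mem q4 hw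
  obtain ⟨k, m, hm, e⟩ := Nat.exists_eq_two_pow_mul_odd (orderOf_pos (q * w)).ne'
  obtain ⟨i, i1, i2⟩ := exists_sq_mem (X := zpowers t) k ((q * w) ^ m) (by
    rw [← pow_mul, mul_comm, ← e, pow_orderOf_eq_one]; exact one_mem _) fun e' => w0 (by
      obtain ⟨l, rfl⟩ := hm
      have h1 : (q * w) ^ 2 ∈ DD.rs C1[t] := mem_of_mem_of_eq (mul_mem q2
        (conj_mem_of_le_normalizer (DD.le_rs_norm _) hw q2)) (by rw [h.winv.inv_eq, pow_two]; group)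
      have h2 := t0 e'
      rw [pow_succ, pow_mul, mul_mem_cancel_left (pow_mem h1 l)] at h2
      exact (mul_mem_cancel_left q2).1 h2)
  rw [← pow_mul] at i1 i2
  generalize m * i = n at i1 i2
  have q5 : q⁻¹ = q * t := inv_eq_of_mul_eq_one_right (by rw [← mul_assoc, q1, h.inv.2])
  have c1 : ∀ g : G, g * (q * w) * g⁻¹ = (q * w)⁻¹ * t → ⁅g, (q * w) ^ n⁆ ∈ zpowers t := fun g e => by
    rw [commutatorElement_def, ← conj_pow, e, Commute.mul_pow (mem_C1.1 (inv_mem r1)), mul_assoc,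
      ← zp_comm (inv_mem (pow_mem r1 n)) (pow_mem (mem_zpowers t) n), ← mul_assoc, inv_pow, ← mul_inv_rev]
    exact mul_mem (inv_mem i2) (pow_mem (mem_zpowers t) n)
  have c2 := c1 w (by rw [mul_inv_rev, q5, h.winv.inv_eq, mul_assoc, mul_assoc, h.winv.2, mul_one,
    mul_assoc, mul_assoc, h.inv.2, mul_one])
  have c3 := c1 q (by rw [← mul_assoc, q1, mul_assoc, ← h.winv.inv_eq, ← mul_inv_rev, h.winv.inv_eq,
    mem_C1.1 (inv_mem r1)])
  have z1 := pow_mem r1 n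
  generalize (q * w) ^ n = z at i1 i2 c2 c3 z1
  rcases (zp_iff h.inv).1 i2 with e1 | e1
  swap
  · exact w0 (h.mem_rs hS e1 hw c2)
  have z2 : IsInv z := ⟨fun e => i1 (e ▸ one_mem _), e1⟩
  obtain ⟨P, hP, p1⟩ := exists_isSylowIn_ge z2.isPGroup (zpowers_le.2 z1)
  obtain ⟨δ, hδ⟩ := C.fix2 P hP.isPGroup
  have d1 := hδ t (hP.le_of_normalizes h.inv.isPGroup (zpowers_le.2 (mem_C1_self t))
    (hP.le.trans (c1_le_nzp t)) (mem_zpowers t))
  have d2 := hδ z (p1 (mem_zpowers z))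
  have d3 : ∀ g ∈ C1[t], ⁅g, z⁆ ∈ zpowers t → g • δ = δ := fun g hg e => by
    have e2 : ⁅g, z⁆ • δ = δ := zpowers_le.2 (mem_stabilizer_iff.2 d1) e
    rw [commutatorElement_def, z2.inv_eq, mul_smul, d2, mul_smul, mul_smul, ← eq_inv_smul_iff] at e2
    rw [← eq_inv_smul_iff]
    exact C.one_inv h.inv z2 (fun e => i1 (e ▸ mem_zpowers _)) (mem_C1.1 z1) _ _ d1
      (by rw [← mul_smul, ← mem_C1.1 (inv_mem hg), mul_smul, d1]) d2 e2
  have d4 := C.one_inv h.inv h.winv (fun e => w0 (e ▸ t0 (mem_zpowers _))) (mem_C1.1 hw) _ _ d1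
    (h.fix t (h.ST (h.QS (h.zQ (mem_zpowers t))))) (d3 w hw c2) (h.fix w h.wT)
  exact q3 (d4 ▸ d3 q q4 c3)

end Cfsg.Lib.TGC
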