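import Cfsg.Agent.Lib.TGC.NineA
import Cfsg.Agent.Lib.TGC.Ben

/-! Case (b): `C(t)` induces `A₉` on the nine fixed points of `t` (plan, section Nine). -/

set_option autoImplicit false
set_option linter.unusedSectionVars false

namespace Cfsg.Lib.TGC
open Subgroup MulAction Cfsg.Lib Cfsg.Lib.FT Cfsg.Lib.Bender
open scoped commutatorElement

variable {G Ω : Type*} [Group G] [MulAction G Ω] [Finite G]

theorem NL_fix {t r g : G} (hg : g ∈ NL Ω t r) {a : Ω} (h : r • a = a) : r • g • a = g • a := (hg.2 a).2 h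

theorem zp_fix {x y : G} (h : y ∈ zpowers x) {a : Ω} (e : x • a = a) : y • a = a :=
  zpowers_le.2 (mem_stabilizer_iff.2 e) h

theorem N_fix {u g : G} (hg : g ∈ N[zpowers u]) {a : Ω} (e : u • a = a) : u • g • a = g • a := by
  have := zp_fix (conj_mem' hg (mem_zpowers u)) e
  rwa [mul_smul, mul_smul, inv_smul_eq_iff] at this

namespace St
variable {t u w : G} {T S R Q J O : Subgroup G} {α : Ω} (h : St Ω t u w T S R Q J O α)
include h

theorem uR : u ∈ R := (h.memR u).2 ⟨h.uS, fun _ e => e⟩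

theorem unz : u ∉ zpowers t := fun e => h.inv.1 (h.sq.symm.trans (zp_sq h.inv e))

theorem iQ : w * u * w ∈ Q := h.wR' h.uR

theorem wnz {x : G} (e : x ∉ zpowers t) : w * x * w ∉ zpowers t := fun e' => e (by rwa [← h.ww x, h.wz e'])

theorem wfix {x : G} {a : Ω} : (w * x * w) • w • a = w • a ↔ x • a = a := by
  rw [mul_smul, h.winv.smul_smul, mul_smul, smul_left_cancel_iff]

theorem wfix' {x : G} {a : Ω} : x • w • a = w • a ↔ (w * x * w) • a = a := by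
  rw [← h.wfix (x := w * x * w), h.ww]

theorem fixQ' {q : G} (hq : q ∈ Q) (h1 : q ∉ zpowers t) (a : Ω) : q • a = a ↔ (w * u * w) • a = a := by
  rw [← h.wfix', ← h.fixR' (h.wQ hq) (h.wnz h1), h.wfix]

theorem fixQ {q : G} (hq : q ∈ Q) {a : Ω} (e : (w * u * w) • a = a) : q • a = a :=
  h.wfix.1 (((h.memR _).1 (h.wQ hq)).2 _ (h.wfix'.2 e))

theorem fixR'' {r : G} (hr : r ∈ R) {a : Ω} (e : u • a = a) : r • a = a := ((h.memR _).1 hr).2 _ e

theorem meet {a : Ω} (e1 : u • a = a) (e2 : (w * u * w) • a = a) : a = α :=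
  by_contra fun e => h.wnz h.unz (h.nfix h.iQ e1 e e2)

theorem fixS {x : G} (hx : x ∈ S) : x • α = α := h.fix x (h.ST hx)

theorem wα : w • α = α := h.fix w h.wT

theorem ne_α {g : G} (hg : g • α = α) {a : Ω} (e : a ≠ α) : g • a ≠ α :=
  fun e' => e (smul_left_cancel g (e'.trans hg.symm))

theorem N_le : N[zpowers u] ≤ NL Ω t u := fun g hg => ⟨mem_C1.1 (h.ben.NC hg), fun a =>
  ⟨fun e => by simpa using N_fix (inv_mem hg) e, N_fix hg⟩⟩

theorem mem_L2 {g q q' : G} (hg : g ∈ C1[t]) (hq : q ∈ Q) (h1 : q ∉ zpowers t) (hq' : q' ∈ Q)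
    (h2 : q' ∉ zpowers t) (e : g * q * g⁻¹ = q') : g ∈ NL Ω t (w * u * w) := ⟨mem_C1.1 hg, fun a => by
  rw [← h.fixQ' hq' h2, ← h.fixQ' hq h1, ← e, mul_smul, inv_smul_smul, mul_smul, smul_left_cancel_iff]⟩

theorem S_le : S ≤ NL Ω t (w * u * w) := fun s hs => ⟨mem_C1.1 (h.SC hs), fun a => by
  rw [← h.wfix', ← h.wfix', ← (h.sylL.le (h.wS s hs)).2 (w • a), mul_smul, h.winv.smul_smul, mul_smul]⟩

theorem trQ {b c : Ω} (hb : u • b = b) (hc : u • c = c) (b1 : b ≠ α) (c1 : c ≠ α) : ∃ q ∈ Q, q • b = c := by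
  obtain ⟨y, y1, y2, e⟩ := h.benS.reg1 b c hb hc b1 c1
  obtain ⟨ρ, hρ, q, hq, rfl⟩ := (h.benS.q8 rfl).2.2 y y1 y2
  exact ⟨q, hq, by rw [← e, mul_smul, zp_fix hρ (NL_fix (h.sylL.le (h.QS hq)) hb)]⟩

theorem trR {b c : Ω} (hb : (w * u * w) • b = b) (hc : (w * u * w) • c = c) (b1 : b ≠ α) (c1 : c ≠ α) :
    ∃ r ∈ R, r • b = c := by
  obtain ⟨q, hq, e⟩ := h.trQ (h.wfix'.2 hb) (h.wfix'.2 hc) (h.ne_α h.wα b1) (h.ne_α h.wα c1)
  exact ⟨_, h.wQ hq, by rw [mul_smul, mul_smul, e, h.winv.smul_smul]⟩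

theorem memF {x : G} : x ∈ R ⊔ Q ↔ ∃ r ∈ R, ∃ q ∈ Q, r * q = x :=
  mem_sup_of_le_normalizer (le_trans (fun _ hq => mem_centralizer_iff.2 fun _ hr => h.comm hr hq)
    (centralizer_le_normalizer _))

theorem FS : R ⊔ Q ≤ S := sup_le h.RS h.QS

theorem wF {x : G} (e : w * x * w ∈ R ⊔ Q) : x ∈ R ⊔ Q := by
  obtain ⟨r, hr, q, hq, e⟩ := h.memF.1 e
  rw [← h.ww x, ← e, h.wmul]
  exact mul_mem (mem_sup_right (h.wR' hr)) (mem_sup_left (h.wQ hq))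

theorem fixF {f : G} (hf : f ∈ R ⊔ Q) {β : Ω} (hb : u • β = β) (b1 : β ≠ α) (e1 : f • β = β)
    (e2 : f • w • β = w • β) : f ∈ zpowers t := by
  obtain ⟨r, hr, q, hq, rfl⟩ := h.memF.1 hf
  rw [mul_smul, h.fixQ hq (h.wfix.2 hb), h.wfix'] at e2
  rw [h.comm hr hq, mul_smul, h.fixR'' hr hb] at e1
  exact mul_mem (by simpa [h.ww] using h.wnz.mtr (by simpa [h.ww] using h.nfix (h.wR' hr) hb b1 e2))
    (h.nfix hq hb b1 e1)

theorem rootF {z : G} (hz : z ∈ R ⊔ Q) (e : z * z = t) : z ∈ R ∨ z ∈ Q := by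
  obtain ⟨r, hr, q, hq, rfl⟩ := h.memF.1 hz
  by_cases q0 : q ∈ zpowers t
  · exact .inl (mul_mem hr (h.zR q0))
  rw [h.sw _ _ hq hr, h.sqQ hq q0, mul_eq_right] at e
  refine .inr (mul_mem (h.zQ (by_contra fun r0 => h.inv.1 ?_)) hq)
  rw [← h.sqR hr r0, e]

theorem mem_K {x : G} : x ∈ R ↔ x ∈ S ∧ x ∈ Kr Ω N[zpowers u] u := by
  rw [h.memR, mem_Kr]
  exact ⟨fun e => ⟨e.1, h.sylu.le e.1, e.2⟩, fun e => ⟨e.1, e.2.2⟩⟩

theorem ex_fix {z : G} (hz : z ∈ S) (z0 : z ∉ R ⊔ Q) (e : z * z = t) : ∃ b, u • b = b ∧ b ≠ α ∧ z • b = b := by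
  by_contra hn
  push Not at hn
  obtain ⟨q, hq, -, e1⟩ := h.benS.f1 z hz (h.mem_K.1 (h.zR (e ▸ mem_zpowers _))).2 fun a b a1 b1 a2 b2 =>
    (by_contra fun e => hn a a1 e a2 : a = α).trans (by_contra fun e => hn b b1 e b2 : b = α).symm
  exact z0 (h.memF.2 ⟨_, h.mem_K.2 ⟨mul_mem hz (inv_mem (h.QS hq)), e1⟩, q, hq, inv_mul_cancel_right _ _⟩)

theorem ex_fix' {z : G} (hz : z ∈ S) (z0 : z ∉ R ⊔ Q) (e : z * z = t) :
    ∃ b, (w * u * w) • b = b ∧ b ≠ α ∧ z • b = b := by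
  obtain ⟨b, b1, b2, b3⟩ := h.ex_fix (h.wS z hz) (mt h.wF z0) (by rw [← h.wmul, e, h.wz (mem_zpowers t)])
  exact ⟨w • b, h.wfix.2 b1, h.ne_α h.wα b2, h.wfix'.2 b3⟩

theorem w_nmem : w ∉ S := fun hw => by
  obtain ⟨β, b1, b2⟩ := h.exβ
  exact h.ne_α h.wα b2 (h.meet (NL_fix (h.sylL.le hw) b1) (h.wfix.2 b1))

theorem a_inv : IsInv (u * (w * u * w)) :=
  ⟨fun e => h.unz (h.nz h.uR ((mul_mem_cancel_left h.uR).1 (e ▸ one_mem R))), h.v_sq h.uR⟩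

theorem a_ne : u * (w * u * w) ≠ t := fun e =>
  h.unz (h.nz h.uR ((mul_mem_cancel_left h.uR).1 (h.zR (e ▸ mem_zpowers _))))

theorem aS : u * (w * u * w) ∈ S := mul_mem h.uS (h.QS h.iQ)

theorem tS : t ∈ S := h.QS (h.zQ (mem_zpowers t))

theorem w_ne : w ≠ t := fun e => h.w_nmem (e ▸ h.tS)

variable (C : Ctx G Ω)
include C

theorem sq_s {s : G} (hs : s ∈ S) (s0 : s ∉ R ⊔ Q) {β : Ω} (hb : u • β = β) (b1 : β ≠ α) (e1 : s • β = β)
    (e2 : s • w • β = w • β) : s * s = t := by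
  have e := h.fixF ((h.idx s hs s hs).elim (absurd · s0) (·.resolve_left s0)) hb b1
    (by rw [mul_smul, e1, e1]) (by rw [mul_smul, e2, e2])
  refine ((mem_zp h.inv).1 e).resolve_left fun e' => s0 (mem_sup_left (h.zR ((mem_zp h.inv).2
    (C.mem_of_two h.inv (mem_C1.1 (h.SC hs)) e' fun o => b1 ?_))))
  exact o _ _ (fix_sq h.sq hb) (h.fixS h.tS) e1 (h.fixS hs)

theorem fix_s {s : G} (hs : s ∈ S) (s0 : s ∉ R ⊔ Q) {β : Ω} (hb : u • β = β) (b1 : β ≠ α) (e1 : s • β = β)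
    (e2 : s • w • β = w • β) {a : Ω} (ha : s • a = a) : u • a = a ∨ (w * u * w) • a = a := by
  have s2 := h.sq_s C hs s0 hb b1 e1 e2
  have nz : ∀ {x : G}, x * s * x⁻¹ * s⁻¹ ∈ zpowers t → x ∈ N[zpowers s] := fun e => mem_N_zp
    (mem_of_mem_of_eq (mul_mem (zpowers_le.2 (s2 ▸ mul_mem (mem_zpowers s) (mem_zpowers s)) e)
      (mem_zpowers s)) (by group))
  have uN : ∀ {s : G}, s ∈ S → u * s * u⁻¹ * s⁻¹ ∈ zpowers t := fun {s} hs => by
    have h1 := conj_mem (h.sylu.le hs) (mem_zpowers u)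
    have h2 : s * u * s⁻¹ ∉ zpowers t := fun e =>
      h.unz (mem_of_mem_of_eq (conj_mem' (c1_le_nzp t (h.SC hs)) e) (by group))
    rw [show u * s * u⁻¹ * s⁻¹ = u * (s * u * s⁻¹)⁻¹ by group]
    rcases (mem_zp4 h.inv h.sq).1 h1 with e | e | e | e
    · exact absurd (e ▸ one_mem _) h2
    · exact absurd (e ▸ mem_zpowers _) h2
    · simp [e]
    · rw [e, mul_inv_rev, ← mul_assoc, mem_C1.1 (h.SC h.uS) |> fun e : u * t = t * u => (by
        rw [h.inv.inv_eq, e] : u * t⁻¹ = t * u), mul_inv_cancel_right]; exact mem_zpowers t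
  have n1 := nz (uN hs)
  have n2 : w ∈ N[zpowers s] := nz (by
    have h1 := (h.idx _ (h.wS s hs) _ (inv_mem hs)).elim (fun e => absurd (h.wF e) s0)
      (·.resolve_left (mt inv_mem_iff.1 s0))
    rw [h.winv.inv_eq]
    exact h.fixF h1 hb b1 (by rw [mul_smul, inv_smul_eq_iff.2 e1.symm, ← h.wfix', e2])
      (by rw [mul_smul, inv_smul_eq_iff.2 e2.symm, h.wfix, e1]))
  have n3 : w * u * w ∈ N[zpowers s] := mul_mem (mul_mem n2 n1) n2
  have fx : ∀ {x : G} {b : Ω}, x ∈ N[zpowers s] → s • b = b → s • x • b = x • b := fun hx e => N_fix hx e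
  have c1 := NL_fix (h.sylL.le (h.QS h.iQ)) hb
  have c2 := h.ne_α (h.fixS (h.QS h.iQ)) b1
  have c3 : (w * u * w) • β ≠ β := fun e => b1 (h.meet hb e)
  have d1 := h.wfix.2 hb
  have d2 := h.ne_α h.wα b1
  have d3 := NL_fix (h.S_le h.uS) d1
  have d4 := h.ne_α (h.fixS h.uS) d2
  have d5 : u • w • β ≠ w • β := fun e => d2 (h.meet e d1)
  have h3 : {a : Ω | s • a = a ∧ u • a = a}.ncard = 3 := by
    refine Set.ncard_eq_three.2 ⟨α, β, (w * u * w) • β, b1.symm, c2.symm, c3.symm, Set.Subset.antisymm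
      (fun x hx => by_contra fun hn => s0 (mem_sup_left ((h.memR s).2 ⟨hs, fun y hy => by_contra fun hn' => ?_⟩))) ?_⟩
    · simp only [Set.mem_insert_iff, Set.mem_singleton_iff, not_or] at hn
      have k : ∀ z, s • z = z → z ≠ y := fun z e e' => hn' (e' ▸ e)
      have := mem_of_five (h.benS.q8 rfl).2.1 (a := α) (b := β) (c := (w * u * w) • β) (d := x) (e := y)
        (x := s • y) (by
          simp [b1.symm, c2.symm, c3.symm, Ne.symm hn.1, Ne.symm hn.2.1, Ne.symm hn.2.2, k _ (h.fixS hs), k _ e1,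
            k _ (fx n3 e1), k _ hx.1])
        (by simp [mem_fixedBy, h.fixS h.uS, hb, c1, hx.2, hy]) (NL_fix (h.sylL.le hs) hy)
      have k' : ∀ z, s • z = z → s • y ≠ z := fun z e e' => k z e (smul_left_cancel s (e.trans e'.symm))
      simp [k' _ (h.fixS hs), k' _ e1, k' _ (fx n3 e1), k' _ hx.1, hn'] at this
    · rintro _ (rfl | rfl | rfl)
      exacts [⟨h.fixS hs, h.fixS h.uS⟩, ⟨e1, hb⟩, ⟨fx n3 e1, c1⟩]
  have h5 : (fixedBy Ω s).ncard = 5 := by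
    have k : ∀ ε, TypeII Ω t s ε → (fixedBy Ω s).ncard = 5 := fun ε ⟨J', O', B, _⟩ => by
      obtain ⟨P, hP, p1⟩ := exists_isSylowIn_ge (U := S ⊓ N[zpowers s]) h.sylu.isPGroup.to_inf_left inf_le_right
      obtain ⟨Q', B'⟩ := B.syl P hP α (h.fixS hs) (C.fix_of_four hP.isPGroup h.inv h.a_inv h.a_ne.symm
        (mem_C1.1 (h.SC h.aS)).symm (p1 ⟨h.tS, le_normalizer (s2 ▸ mul_mem (mem_zpowers s) (mem_zpowers s))⟩)
        (p1 ⟨h.aS, mul_mem n1 n3⟩) (h.fixS h.tS) (h.fixS h.aS))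
      exact B'.five u (p1 ⟨h.uS, n1⟩) (mem_Kr.2 ⟨mul_mem n1 n1, fun a e => h.sq ▸ fix_sq s2 e⟩) h3
    rcases C.ben_u h.inv ⟨s2, α, β, b1.symm, h.fixS hs, e1⟩ with A | A | A
    · have hw := mem_C1.1 (h.TC h.wT)
      have ha := mem_C1.1 (h.SC h.aS)
      rcases A.gen α (h.fixS hs) _ (mul_mem n1 n3) _ n2 (h.fixS h.aS) h.wα (h.a_inv.2 ▸ one_mem _)
        (h.winv.2 ▸ one_mem _) (commutatorElement_eq_one_iff_mul_comm.2 (h.v_comm h.uR) ▸ one_mem _)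
        with o | o | o <;> refine absurd (One.of_sq ?_ s2) o
      · exact C.one_inv h.inv h.a_inv h.a_ne ha
      · exact C.one_inv h.inv h.winv h.w_ne hw
      · exact C.one_inv h.inv (h.a_inv.mul_of_comm h.winv (fun e => h.w_nmem (e ▸ h.aS)) (h.v_comm h.uR))
          (fun e => h.w_nmem ((mul_mem_cancel_left h.aS).1 (e ▸ h.tS))) (Commute.mul_left ha hw)
    exacts [k _ A, k _ A]
  have k : ∀ {x y : Ω}, u • x = x → (w * u * w) • y = y → y ≠ α → x ≠ y := fun e1 e2 e3 e =>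
    e3 (h.meet (e ▸ e1) e2)
  have := mem_of_five h5 (a := α) (b := β) (c := (w * u * w) • β) (d := w • β) (e := u • w • β) (by
      simp [b1.symm, c2.symm, c3.symm, d2.symm, d4.symm, d5.symm, k hb d1 d2, k hb d3 d4, k c1 d1 d2, k c1 d3 d4])
    (by simp [mem_fixedBy, h.fixS hs, e1, e2, fx n3 e1, fx n1 e2]) ha
  simp only [List.mem_cons, List.not_mem_nil, or_false] at this
  rcases this with rfl | rfl | rfl | rfl | rfl
  exacts [.inl (h.fixS h.uS), .inl hb, .inl c1, .inr d1, .inr d3]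

theorem root_fix {z : G} (hz : z ∈ S) (e : z * z = t) {a : Ω} (ha : z • a = a) :
    u • a = a ∨ (w * u * w) • a = a := by
  have z1 : z ∉ zpowers t := fun e' => h.inv.1 (e.symm.trans (zp_sq h.inv e'))
  by_cases z0 : z ∈ R ⊔ Q
  · exact (h.rootF z0 e).imp (fun e => (h.fixR' e z1 a).1 ha) fun e => (h.fixQ' e z1 a).1 ha
  obtain ⟨b, b1, b2, b3⟩ := h.ex_fix hz z0 e
  obtain ⟨c, c1, c2, c3⟩ := h.ex_fix' hz z0 e
  obtain ⟨r, hr, r1⟩ := h.trR c1 (h.wfix.2 b1) c2 (h.ne_α h.wα b2)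
  have rS := h.RS hr
  exact (h.fix_s C (s := r * z * r⁻¹) (mul_mem (mul_mem rS hz) (inv_mem rS)) (fun e => z0 (by
    rwa [mul_mem_cancel_right (mem_sup_left (inv_mem hr)), mul_mem_cancel_left (mem_sup_left hr)] at e)) b1 b2
    (by nth_rewrite 1 [← h.fixR'' hr b1]; rw [fix_conj b3, h.fixR'' hr b1]) (r1 ▸ fix_conj c3)
    (fix_conj ha)).imp ((h.sylL.le rS).2 a).1 ((h.S_le rS).2 a).1

theorem ex_s {β : Ω} (hb : u • β = β) (b1 : β ≠ α) :
    ∃ s ∈ S, s ∉ R ⊔ Q ∧ s • β = β ∧ s • w • β = w • β := by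
  obtain ⟨s, hs, s0⟩ := SetLike.not_le_iff_exists.1 (h.not_le C)
  obtain ⟨q, hq, e1⟩ := h.trQ (NL_fix (h.sylL.le hs) hb) hb (h.ne_α (h.fixS hs) b1) b1
  have d1 := h.wfix.2 hb
  have d2 := h.ne_α h.wα b1
  have s1 := mul_mem (h.QS hq) hs
  obtain ⟨r, hr, e2⟩ := h.trR (NL_fix (h.S_le s1) d1) d1 (h.ne_α (h.fixS s1) d2) d2
  exact ⟨r * (q * s), mul_mem (h.RS hr) s1, fun e => s0 (by
    rwa [mul_mem_cancel_left (mem_sup_left hr), mul_mem_cancel_left (mem_sup_right hq)] at e),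
    by rw [mul_smul, mul_smul, e1, h.fixR'' hr hb], by rw [mul_smul, e2]⟩

omit C in
theorem O_le : O ≤ NL Ω t (w * u * w) := by
  obtain ⟨x, hx, y, hy, x0, y0, xy⟩ := h.benS.rank
  have n : Q ≤ N[O] := h.QS.trans (h.sylu.le.trans h.ben.On)
  have c : O ≤ C1[t] := h.ben.Ole.trans (inf_le_left.trans (h.ben.JN.trans h.ben.NC))
  have c' : zpowers t ≤ C[O] := zpowers_le.2 (le_C1_iff.1 c)
  have k : ∀ q ∈ Q, q ∉ zpowers t → O ⊓ C1[q] ≤ NL Ω t (w * u * w) := fun q hq q0 g hg =>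
    h.mem_L2 (c hg.1) hq q0 hq q0 (by rw [mem_C1.1 hg.2, mul_inv_cancel_right])
  refine gen4 h.ben.Oodd (n hx) (n hy) (c' (h.sqQ hx x0 ▸ mem_zpowers _)) (c' (h.sqQ hy y0 ▸ mem_zpowers _))
    (c' ?_) (k x hx x0) (k y hy y0) (k _ (mul_mem hx hy) xy)
  rw [commutatorElement_def, anti_of_sq h.inv.2 (h.sqQ hx x0) (h.sqQ hy y0) (h.sqQ (mul_mem hx hy) xy),
    mem_C1.1 (h.SC (h.QS (mul_mem hy hx)))]
  simp [mul_assoc]

omit C in
theorem stab_le {g : G} (hg : g ∈ N[zpowers u]) (e : g • α = α) : g ∈ NL Ω t (w * u * w) := by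
  have i1 := (h.benS.mem _).1 h.iQ
  have i2 := h.sqQ h.iQ (h.wnz h.unz)
  obtain ⟨y, y1, -, y3⟩ := h.benS.nrm g hg e _ i1.1 i1.2.1
  obtain ⟨k, hk, k1⟩ := (h.sylu.mono (le_inf h.S_le h.sylu.le) inf_le_right).exists_conj_le
    (isPGroup_zpowers_of (n := 2) (g := g * (w * u * w) * g⁻¹) (by
      rw [conj_pow, show 2 ^ 2 = 2 * 2 from rfl, pow_mul, pow_two, pow_two, i2, h.inv.2]; group))
    (zpowers_le.2 (mem_inf.2 ⟨mem_of_mem_of_eq (mul_mem (h.O_le y3) (h.S_le y1)) (by group),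
      mul_mem (mul_mem hg (h.sylu.le i1.1)) (inv_mem hg)⟩))
  rw [mem_inf] at hk
  have k2 := mul_mem hk.2 hg
  have k3 : k * g * (w * u * w) * (k * g)⁻¹ ∉ zpowers u := fun e => h.wnz h.unz (h.inter
    (zpowers_le.2 h.uR (mem_of_mem_of_eq (conj_mem' k2 e) (by group))) h.iQ)
  have k4 : k * g * (w * u * w) * (k * g)⁻¹ ∈ Q := (h.benS.mem _).2 ⟨mem_of_mem_of_eq
    (k1 (conj_mem_conj (mem_zpowers _) k)) (by group), conj_mem (h.ben.Jn k2) i1.2.1, .inr (.inr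
      ⟨by rw [conj_mul, i2, mem_C1.1 (h.ben.NC k2), mul_inv_cancel_right], k3⟩)⟩
  exact (mul_mem_cancel_left hk.1).1 (h.mem_L2 (h.ben.NC k2) h.iQ (h.wnz h.unz) k4
    (fun e => k3 (zpowers_le.2 (h.sq ▸ mul_mem (mem_zpowers u) (mem_zpowers u)) e)) rfl)

theorem N_fix2 {g : G} (hg : g ∈ N[zpowers u]) {a : Ω} (ha : u • a = a ∨ (w * u * w) • a = a) :
    u • g • a = g • a ∨ (w * u * w) • g • a = g • a := by
  refine or_iff_not_imp_left.2 fun a0 => ?_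
  have a1 : u • a ≠ a := fun e => a0 (N_fix hg e)
  have a2 := ha.resolve_left a1
  have a3 : a ≠ α := fun e => a1 (e ▸ h.fixS h.uS)
  by_cases b1 : g • α = α
  · exact NL_fix (h.stab_le hg b1) a2
  have hb := N_fix hg (h.fixS h.uS)
  obtain ⟨j, hj, j1⟩ := h.ben.tr α _ (h.fixS h.uS) hb
  obtain ⟨c, c1, c2, c3⟩ := h.ben.cov R (fun _ e => (h.mem_K.1 e).2) (h.sylu.isPGroup.to_le h.RS) j hj
  have c4 : c⁻¹ • g • α = α := by rw [← j1, ← mul_smul]; exact (mem_Kr.1 c3).2 α (h.fixS h.uS)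
  have cN := h.ben.JN c1
  have g1 := mul_mem (inv_mem cN) hg
  have g2 : (c⁻¹ * g) • α = α := by rw [mul_smul, c4]
  obtain ⟨s, hs, s0, s1, s2⟩ := h.ex_s C hb b1
  have s3 := h.sq_s C hs s0 hb b1 s1 s2
  have sN := mul_mem (mul_mem (inv_mem cN) (h.sylu.le hs)) cN
  have s4 : (c⁻¹ * s * c) • α = α := by
    rw [mul_smul, mul_smul, ← (inv_smul_eq_iff.1 c4), s1, c4]
  have s5 : c⁻¹ * s * c * (c⁻¹ * s * c) = t := by
    rw [show c⁻¹ * s * c * (c⁻¹ * s * c) = c⁻¹ * (s * s) * c by group, s3, mul_assoc,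
      ← mem_C1.1 (h.ben.NC cN), inv_mul_cancel_left]
  obtain ⟨n, hn, n1⟩ := (h.sylu.mono (L := N[zpowers u] ⊓ stabilizer G α)
    (le_inf h.sylu.le fun _ e => h.fixS e) inf_le_left).exists_conj_le (isPGroup_zpowers_of (n := 2)
      (g := c⁻¹ * s * c) (by rw [show 2 ^ 2 = 2 * 2 from rfl, pow_mul, pow_two, pow_two, s5, h.inv.2]))
    (zpowers_le.2 ⟨sN, s4⟩)
  rw [mem_inf] at hn
  have n2 := n1 (conj_mem_conj (mem_zpowers _) n)
  have n3 : n * (c⁻¹ * s * c) * n⁻¹ * (n * (c⁻¹ * s * c) * n⁻¹) = t := by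
    rw [conj_mul, s5, mem_C1.1 (h.ben.NC hn.1), mul_inv_cancel_right]
  have n4 := mul_mem hn.1 (inv_mem cN)
  have n5 : ∀ x : Ω, (n * (c⁻¹ * s * c) * n⁻¹) • (n * c⁻¹) • x = (n * c⁻¹) • s • x := fun x => by
    simp only [← mul_smul]; congr 1; group
  obtain ⟨d, d1, d2, d3⟩ := h.ex_fix' n2 (fun e => (h.rootF e n3).elim (fun e => s0 (mem_sup_left
    ((h.memR s).2 ⟨hs, fun x hx => smul_left_cancel (n * c⁻¹) ((n5 x).symm.trans
      (h.fixR'' e (N_fix n4 hx)))⟩))) fun e => h.inv.1 (n3.symm.trans (zp_sq h.inv (h.nfix e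
        (N_fix n4 (h.fixS h.uS)) (fun e' => b1 (smul_left_cancel (n * c⁻¹) (by
          rw [e', mul_smul, c4]; exact hn.2))) (by rw [n5, h.fixS hs]))))) n3
  have d4 := NL_fix (inv_mem (h.stab_le hn.1 hn.2)) d1
  have d5 := h.ne_α (inv_mem hn.2 :) d2
  have d6 : (w * u * w) • c • n⁻¹ • d = c • n⁻¹ • d := (h.fix_s C hs s0 hb b1 s1 s2 (smul_left_cancel (n * c⁻¹)
    (by rw [← n5, mul_smul n, inv_smul_smul, smul_inv_smul, d3]))).resolve_left fun e =>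
      d5 (h.meet (((h.N_le cN).2 _).1 e) d4)
  obtain ⟨r, hr, e⟩ := h.trR d4 (NL_fix (h.stab_le g1 g2) a2) d5 (h.ne_α g2 a3)
  have e1 : g • a = r • c • n⁻¹ • d := by
    rw [← mul_smul r, mem_centralizer_iff.1 c2 r hr, mul_smul, e, mul_smul, smul_inv_smul]
  exact e1 ▸ NL_fix (h.S_le (h.RS hr)) d6

theorem fix_t {γ : Ω} (hγ : t • γ = γ) : u • γ = γ ∨ (w * u * w) • γ = γ := by
  obtain ⟨y, y1, y2, y3, y4⟩ := C.exists_inv_at h.inv hγ
  obtain ⟨z, z1, z2, z3, z4, z5⟩ := exists_dihedral h.inv h.sq y1 (mem_C1.2 y3)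
  have tu : zpowers t ≤ zpowers u := zpowers_le.2 (h.sq ▸ mul_mem (mem_zpowers u) (mem_zpowers u))
  have zN : z ∈ N[zpowers u] := mem_N_zp (mem_of_mem_of_eq (mul_mem (inv_mem (tu z5)) (mem_zpowers u))
    (by rw [commutatorElement_def]; group))
  have z6 := fix_comm (mem_C1.1 z1) hγ
  have z7 : z • γ = γ := C.one_inv h.inv y1 y2 y3 _ _ z6 hγ (by
    have := zp_fix z4 z6
    rwa [commutatorElement_def, mul_smul, inv_smul_smul, mul_smul, inv_smul_eq_iff.2 y4.symm,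
      mul_smul] at this) y4
  obtain ⟨k, hk, k1⟩ := h.sylu.exists_conj_le (isPGroup_zpowers_of (n := 2) (g := z) (by
    rw [show 2 ^ 2 = 2 * 2 from rfl, pow_mul, pow_two, pow_two, zp_sq h.inv z3])) (zpowers_le.2 zN)
  have k2 := k1 (conj_mem_conj (mem_zpowers _) k)
  have k3 : u • k • γ = k • γ ∨ (w * u * w) • k • γ = k • γ := by
    rcases (mem_zp h.inv).1 z3 with e | e
    · have kt := mem_C1.1 (h.ben.NC hk)
      rw [(C.one_inv h.inv (y := z) ⟨fun e => z2 (e ▸ one_mem _), e⟩ (fun e => z2 (e ▸ mem_zpowers _))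
        (mem_C1.1 z1)).conj kt _ _ (fix_comm kt hγ) (h.fixS h.tS) (fix_conj z7) (h.fixS k2)]
      exact .inl (h.fixS h.uS)
    · exact h.root_fix C k2 (by rw [conj_mul, e, mem_C1.1 (h.ben.NC hk), mul_inv_cancel_right]) (fix_conj z7)
  simpa using h.N_fix2 C (inv_mem hk) k3

omit C in
theorem K_two {x : G} (hx : x ∈ Kr Ω C1[t] t) (h2 : IsPGroup 2 (zpowers x)) : x ∈ zpowers t := by
  rw [mem_Kr] at hx
  obtain ⟨k, hk, k1⟩ := (h.syl.mono h.TC le_top).exists_conj_le h2 (zpowers_le.2 hx.1)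
  have k2 := k1 (conj_mem_conj (mem_zpowers _) k)
  have k3 : ∀ a : Ω, t • a = a → (k * x * k⁻¹) • a = a := fun a e => by
    simpa using fix_conj (g := k) (hx.2 _ (fix_comm (mem_C1.1 (inv_mem hk)) e))
  refine mem_of_mem_of_eq (conj_mem' (c1_le_nzp t hk) (x := k * x * k⁻¹) ?_) (by group)
  generalize k * x * k⁻¹ = y at k2 k3
  have hw := mem_C1.1 (h.TC h.wT)
  have k4 : y ∈ S := (h.dich y k2).resolve_right fun e => by
    obtain ⟨β, b1, b2⟩ := h.exβ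
    have := NL_fix (h.sylL.le e) b1
    rw [mul_smul, k3 _ (fix_comm hw (fix_sq h.sq b1))] at this
    exact h.ne_α h.wα b2 (h.meet this (h.wfix.2 b1))
  exact h.nz ((h.memR y).2 ⟨k4, fun a e => k3 a (fix_sq h.sq e)⟩) ((h.memR _).2 ⟨h.wS y k4, fun a e =>
    h.wfix'.1 (k3 _ (fix_comm hw (fix_sq h.sq e)))⟩)

omit C in
theorem trE {β b : Ω} (hb : u • β = β) (b1 : β ≠ α) (e : u • b = b ∨ (w * u * w) • b = b) (b2 : b ≠ α) :
    ∃ g ∈ T ⊓ C1[w], g • b = β := by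
  have k : ∀ b, u • b = b → b ≠ α → ∃ g ∈ T ⊓ C1[w], g • b = β := fun b e b2 => by
    obtain ⟨q, hq, e1⟩ := h.trQ e hb b2 b1
    refine ⟨_, ⟨h.ST (mul_mem (h.RS (h.wQ hq)) (h.QS (h.wR' (h.wQ hq)))), mem_C1.2 (h.v_comm (h.wQ hq))⟩, ?_⟩
    rw [h.ww, mul_smul, e1, h.fixR'' (h.wQ hq) hb]
  rcases e with e | e
  · exact k b e b2
  · obtain ⟨g, hg, e1⟩ := k _ (h.wfix'.2 e) (h.ne_α h.wα b2)
    exact ⟨g * w, mul_mem hg ⟨h.wT, mem_C1_self w⟩, by rw [mul_smul, e1]⟩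

omit C in
theorem ex_three : ∃ k ∈ C1[t], Odd (orderOf k) ∧ k ∉ Kr Ω C1[t] t ∧ k • α = α ∧
    ∀ a : Ω, (w * u * w) • a = a → k • a = a := by
  obtain ⟨x, hx, y, hy, x0, y0, xy⟩ := h.benS.rank
  obtain ⟨k, k1, k2, k3, k4⟩ := h.benS.tor y hy _ (mul_mem hx hy) y0 xy
  have kt := h.ben.NC (h.ben.JN k1)
  have ku := mem_C1.1 (h.ben.Jc k1)
  have y1 := conj_mem k3 hy
  have y2 : k * y * k⁻¹ ∉ zpowers t := fun e =>
    y0 (mem_of_mem_of_eq (conj_mem' (c1_le_nzp t kt) e) (by group))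
  have kL := h.mem_L2 kt hy y0 y1 y2 rfl
  have kα : k • α = α := h.meet (fix_comm ku (h.fixS h.uS)) (NL_fix kL (h.fixS (h.QS h.iQ)))
  refine ⟨k, kt, k2, fun e => x0 ?_, kα, fun a ha => ?_⟩
  · obtain ⟨β, b1, b2⟩ := h.exβ
    have e1 := h.nfix (mul_mem y1 (inv_mem hy)) b1 b2 (by
      have := (mem_Kr.1 e).2
      have b3 := fix_sq h.sq b1
      rw [mul_smul, mul_smul, (mem_Kr.1 (inv_mem e)).2 _ (fix_comm (mem_C1.1 (inv_mem (h.SC (h.QS hy)))) b3),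
        mul_smul, smul_inv_smul, this _ b3])
    rcases k4 with e2 | e2 <;> rw [e2] at e1
    · simpa using e1
    · rw [mul_assoc x, mem_C1.1 (h.SC (h.QS hy)), ← mul_assoc, mul_inv_cancel_right] at e1
      exact (mul_mem_cancel_right (mem_zpowers t)).1 e1
  by_cases a1 : a = α
  · rw [a1, kα]
  have uu : ∀ b : Ω, (w * u * w) • b = b → u • u • b = b := fun b e => by
    rw [← mul_smul, h.sq]; exact fix_sq (h.sqQ h.iQ (h.wnz h.unz)) e
  have un : ∀ b : Ω, (w * u * w) • b = b → b ≠ α → u • b ≠ b := fun b e e1 e2 => e1 (h.meet e2 e)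
  have ck : ∀ b : Ω, k • u • b = u • k • b := fun b => by rw [← mul_smul, ku, mul_smul]
  have k5 : k • k • a = a ∨ k • k • a = u • a := by
    by_cases e1 : k • a = a
    · exact .inl (by rw [e1, e1])
    by_cases e2 : k • a = u • a
    · exact .inl (by rw [e2, ck, e2, uu a ha])
    have a2 := NL_fix kL ha
    have a3 := h.ne_α kα a1
    have h5 : (fixedBy Ω (w * u * w)).ncard = 5 := by
      rw [← (h.benS.q8 rfl).2.1, ← Set.ncard_image_of_injective _ (MulAction.injective w)]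
      congr 1; ext b
      exact ⟨fun ⟨c, e, e'⟩ => e' ▸ h.wfix'.2 e, fun e => ⟨w • b, h.wfix.2 e, h.winv.smul_smul b⟩⟩
    have e3 : u • k • a ≠ a := fun e => e2 (by rw [← uu _ a2, e])
    have := mem_of_five h5 (a := α) (b := a) (c := u • a) (d := k • a) (e := u • k • a) (x := k • k • a) (by
        simp [Ne.symm a1, (h.ne_α (h.fixS h.uS) a1).symm, a3.symm, (h.ne_α (h.fixS h.uS) a3).symm,
          (un a ha a1).symm, Ne.symm e1, Ne.symm e2, e3.symm, (un _ a2 a3).symm])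
      (by simp [mem_fixedBy, h.fixS (h.QS h.iQ), ha, a2, NL_fix (h.S_le h.uS) ha, NL_fix (h.S_le h.uS) a2])
      (NL_fix kL a2)
    simpa [h.ne_α kα a3, e1, e2, ← ck] using this
  have k6 : k ^ 2 ^ 2 ∈ stabilizer G a := by
    rw [mem_stabilizer_iff, show 2 ^ 2 = 2 * 2 from rfl, pow_mul, pow_two, pow_two, mul_smul, mul_smul, mul_smul]
    rcases k5 with e | e
    · rw [e, e]
    · rw [e, ck, ck, e, uu a ha]
  exact mem_of_odd_of_pow_two_pow k2 k6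

theorem conj_or {y z : G} (hy : IsInv y) (hz : IsInv z) (y1 : y ≠ t) (z1 : z ≠ t) (y2 : y ∈ C1[t])
    (z2 : z ∈ C1[t]) : ∃ g ∈ C1[t], g * y * g⁻¹ = z ∨ g * y * g⁻¹ = z * t := by
  obtain ⟨β, b1, b2⟩ := h.exβ
  obtain ⟨k, k1, k2, k3, k4, k5⟩ := h.ex_three
  have := C.finite
  obtain ⟨g, hg, e⟩ := C.conj_mod h.inv (h.fixS h.tS) (β := β) (fun b e e' => (h.trE b1 b2 (h.fix_t C e) e').imp
    fun g hg => ⟨h.TC hg.1.1, h.fix g hg.1.1, hg.2⟩) k1 k2 k3 (le_trans (Set.ncard_le_ncard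
      (t := fixedBy Ω u \ {α}) fun a ha => ⟨(h.fix_t C ha.1).resolve_right fun e => ha.2 (k5 a e),
        fun e => ha.2 (e ▸ k4)⟩) (by
        rw [Set.ncard_diff_singleton_of_mem (s := fixedBy Ω u) (h.fixS h.uS), (h.benS.q8 rfl).2.1])) hy hz y1 z1 y2 z2
  obtain ⟨n, m, ⟨l, rfl⟩, e1⟩ := Nat.exists_eq_two_pow_mul_odd (orderOf_pos (g * y * g⁻¹ * z)).ne'
  have e2 := h.K_two (pow_mem e (2 * l + 1)) (isPGroup_zpowers_of (n := n) (by
    rw [← pow_mul, mul_comm, ← e1, pow_orderOf_eq_one]))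
  have e3 := ZD.pow_conj_of_inverts (inverts_mul_of_isInv hz.2 (hy.conj g).2) (l + 1)
  have e4 := pow_mem (mem_Kr.1 e).1 (l + 1)
  rw [mul_add, pow_succ _ (2 * l + 1), mul_assoc _ (g * y * g⁻¹ * z) z, mul_assoc (g * y * g⁻¹) z, hz.2,
    mul_one] at e3
  refine ⟨((g * y * g⁻¹ * z) ^ (l + 1))⁻¹ * g, mul_mem (inv_mem e4) hg, ?_⟩
  generalize (g * y * g⁻¹ * z) ^ (l + 1) = p at e3 e4
  rcases (mem_zp h.inv).1 e2 with e5 | e5 <;> rw [e5] at e3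
  · exact .inl (by rw [show p⁻¹ * g * y * (p⁻¹ * g)⁻¹ = p⁻¹ * (1 * (g * y * g⁻¹)) * p by group, ← e3]; group)
  · refine .inr ?_
    calc _ = p⁻¹ * t * (t * (g * y * g⁻¹)) * p := by rw [mul_assoc _ t, ← mul_assoc t, h.inv.2]; group
      _ = _ := by rw [← e3, mem_C1.1 (inv_mem e4), mem_C1.1 z2]; group

theorem conj_all {y z : G} (hy : IsInv y) (hz : IsInv z) (y1 : y ≠ t) (z1 : z ≠ t) (y2 : y ∈ C1[t])
    (z2 : z ∈ C1[t]) : ∃ g ∈ C1[t], g * y * g⁻¹ = z := by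
  have k : ∀ {y : G}, IsInv y → y ≠ t → y ∈ C1[t] → ∃ g ∈ C1[t], g * y * g⁻¹ = u * (w * u * w) := by
    intro y hy y1 y2
    obtain ⟨g, hg, e | e⟩ := h.conj_or C hy h.a_inv y1 h.a_ne y2 (h.SC h.aS)
    · exact ⟨g, hg, e⟩
    obtain ⟨q, hq, -, e1⟩ := exists_anti h.inv.2 h.hq (h.benS.q8 rfl).1 h.iQ (h.sqQ h.iQ (h.wnz h.unz))
    refine ⟨q * g, mul_mem (h.SC (h.QS hq)) hg, ?_⟩
    rw [show q * g * y * (q * g)⁻¹ = q * (g * y * g⁻¹) * q⁻¹ by group, e, mul_inv_eq_iff_eq_mul, mul_assoc u _ q,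
      e1, ← mul_assoc, ← mul_assoc, ← h.comm h.uR hq]
    group
  obtain ⟨a, ha, e1⟩ := k hy y1 y2
  obtain ⟨b, hb, e2⟩ := k hz z1 z2
  exact ⟨b⁻¹ * a, mul_mem (inv_mem hb) ha, by
    rw [show b⁻¹ * a * y * (b⁻¹ * a)⁻¹ = b⁻¹ * (a * y * a⁻¹) * b by group, e1, ← e2]; group⟩

theorem fus {N : Subgroup G} (hN : C1[t] ≤ N) {n : G} (hn : n ∈ N) (h3 : n * t * n⁻¹ ≠ t)
    (h4 : Commute t (n * t * n⁻¹)) {x : G} (xN : x ∈ N) (hx : IsInv x) : ∃ n ∈ N, n * t * n⁻¹ = x := by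
  obtain ⟨k, hk, k1⟩ := (h.syl.mono (h.TC.trans hN) le_top).exists_conj_le hx.isPGroup (zpowers_le.2 xN)
  have k2 := h.TC (k1 (conj_mem_conj (mem_zpowers _) k))
  by_cases e : k * x * k⁻¹ = t
  · exact ⟨k⁻¹, inv_mem hk, by rw [← e]; group⟩
  obtain ⟨g, hg, e1⟩ := h.conj_all C (h.inv.conj n) (hx.conj k) h3 e (mem_C1.2 h4.symm) k2
  exact ⟨k⁻¹ * g * n, mul_mem (mul_mem (inv_mem hk) (hN hg)) hn, by
    rw [show x = k⁻¹ * (k * x * k⁻¹) * k by group, ← e1]; group⟩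

theorem one {x : G} (hx : IsInv x) : ∃ n, n * t * n⁻¹ = x := by
  obtain ⟨g, g1, g2⟩ : ∃ g : G, Commute t (g * t * g⁻¹) ∧ g * t * g⁻¹ ≠ t := by
    simpa [IsIsolated] using C.noc t h.inv
  exact (h.fus C le_top (mem_top g) g2 g1 (mem_top x) hx).imp fun _ e => e.2

theorem odd_le {Y : Subgroup G} (hY : Odd (Nat.card Y)) (Yt : Y ≤ C1[t]) (hn : C1[t] ⊓ C1[w] ≤ N[Y]) :
    Y ≤ centralizerPPrimeCore 2 t := by
  have hw := h.TC h.wT
  have yα := C.odd_fix h.inv hY Yt h.a_inv h.winv (h.v_comm h.uR) (mem_C1.1 (h.SC h.aS)) (mem_C1.1 hw) h.a_ne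
    h.w_ne (fun e => h.w_nmem ((mul_mem_cancel_left h.aS).1 (e ▸ one_mem S)))
    (fun e => h.w_nmem ((mul_mem_cancel_left h.aS).1 (e ▸ h.tS)))
    (hn ⟨h.SC h.aS, mem_C1.2 (h.v_comm h.uR)⟩) (hn ⟨hw, mem_C1_self w⟩) (h.fixS h.tS) (h.fixS h.aS) h.wα
  obtain ⟨β, b1, b2⟩ := h.exβ
  have n1 : T ⊓ C1[w] ≤ N[Y] := (inf_le_inf_right _ h.TC).trans hn
  have yβ : Y ≤ stabilizer G β := by
    have X1 : Y ⊔ T ⊓ C1[w] ≤ C1[t] ⊓ stabilizer G α :=
      sup_le (le_inf Yt yα) (inf_le_left.trans (le_inf h.TC h.fix))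
    have e : (stabilizer G β).relIndex (Y ⊔ T ⊓ C1[w]) = (stabilizer G β).relIndex (T ⊓ C1[w]) := by
      rw [← ncard_smul_eq_relIndex, ← ncard_smul_eq_relIndex]
      congr 1
      refine Set.Subset.antisymm ?_ (Set.image_mono (le_sup_right (a := Y)))
      rintro _ ⟨x, hx, rfl⟩
      obtain ⟨g, hg, e⟩ := h.trE b1 b2 (h.fix_t C (fix_comm (mem_C1.1 (X1 hx).1) (fix_sq h.sq b1)))
        (h.ne_α (X1 hx).2 b2)
      exact ⟨g⁻¹, inv_mem hg, inv_smul_eq_iff.2 e.symm⟩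
    have d := relIndex_dvd_relIndex_of_le_normalizer (H := stabilizer G β ⊓ (Y ⊔ T ⊓ C1[w])) inf_le_right
      le_sup_left (inf_le_right.trans (sup_le le_normalizer n1))
    rw [inf_relIndex_right, e, ← inf_relIndex_right _ Y, inf_assoc, inf_eq_right.2 (le_sup_left (a := Y)),
      inf_relIndex_right] at d
    obtain ⟨n, hn⟩ := IsPGroup.iff_card.1 (h.syl.isPGroup.to_inf_left (K := C1[w]))
    exact relIndex_eq_one.1 (Nat.eq_one_of_dvd_coprimes ((Nat.coprime_two_right.2 hY).pow_right n)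
      (relIndex_dvd_card _ _) (d.trans (hn ▸ relIndex_dvd_card _ _)))
  have YK : Y ≤ Kr Ω C1[t] t := fun y hy => mem_Kr.2 ⟨Yt hy, fun a ha => by
    by_cases e : a = α
    · rw [e, yα y hy]
    obtain ⟨g, hg, e1⟩ := h.trE b1 b2 (h.fix_t C ha) e
    have : (g * y * g⁻¹) • β = β := yβ (conj_mem (n1 hg) hy)
    rwa [← e1, mul_smul, inv_smul_smul, mul_smul, smul_left_cancel_iff] at this⟩
  obtain ⟨P, hP⟩ := exists_isSylowIn 2 (Kr Ω C1[t] t)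
  have := isCyclic_of_le (H' := zpowers t) fun x hx =>
    h.K_two (hP.le hx) (hP.isPGroup.to_le (zpowers_le.2 hx))
  rw [centralizerPPrimeCore_eq]
  exact (le_piCoreOf_of_hasNormalPComplement (bg1_19b hP this fun q hq _ => hq.two_le) YK
    hY.not_two_dvd_nat).trans (piCoreOf_le_of_le_normalizer _ inf_le_left fun g hg => mem_N_of fun x hx =>
      mem_Kr.2 ⟨conj_mem (le_normalizer hg) (mem_Kr.1 hx).1, fun a e => by
        simpa using fix_conj (g := g) ((mem_Kr.1 hx).2 _ (fix_comm (mem_C1.1 (inv_mem hg)) e))⟩)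

end St

theorem St.oc (C : Ctx G Ω) {t u w : G} {T S R Q J O : Subgroup G} {α : Ω}
    (h : St Ω t u w T S R Q J O α) : OCHyp G := by
  have cj : ∀ {g x y : G}, Commute x (g * y * g⁻¹) → g⁻¹ * x * g ∈ C1[y] := fun {g x y} e =>
    mem_map_conj.1 (c1_cj g y ▸ mem_C1.2 e)
  have ne : ∀ {g x y : G}, x ≠ g * y * g⁻¹ → g⁻¹ * x * g ≠ y := fun e e' => e (by rw [← e']; group)
  refine ⟨C.toE8, C.core, fun x y hx hy => ?_, fun s a hs ha sa c Y hY Ya hn => ?_,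
    fun s hs N hN ⟨n, n1, n2, n3⟩ x xN hx => ?_, fun s a hs ha sa c => ?_⟩
  · obtain ⟨a, rfl⟩ := h.one C hx
    obtain ⟨b, rfl⟩ := h.one C hy
    exact ⟨b * a⁻¹, by group⟩
  · obtain ⟨g, rfl⟩ := h.one C ha
    obtain ⟨k, hk, e⟩ := h.conj_all C h.winv (hs.conj' g) h.w_ne (ne sa) (h.TC h.wT) (cj c)
    obtain rfl : g * k * w * (g * k)⁻¹ = s := by
      rw [show g * k * w * (g * k)⁻¹ = g * (k * w * k⁻¹) * g⁻¹ by group, e]; group
    rw [show g * t * g⁻¹ = g * k * t * (g * k)⁻¹ by rw [mul_assoc g k, mem_C1.1 hk]; group] at Ya hn ⊢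
    generalize g * k = p at *
    rw [centralizerPPrimeCore_conj', ← inv_inv p, ← map_conj_le_iff]
    rw [c1_cj, ← inv_inv p, ← map_conj_le_iff] at Ya
    rw [c1_cj, c1_cj, ← map_conj_inf, map_conj_le_iff, ← normalizer_map_conj] at hn
    exact h.odd_le C (by rwa [card_conj]) Ya hn
  · obtain ⟨g, rfl⟩ := h.one C hs
    rw [c1_cj, map_conj_le_iff] at hN
    obtain ⟨m, m1, m2⟩ := h.fus C hN (n := g⁻¹ * n * g) (by simpa [mem_map_conj, mul_assoc] using n1)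
      (fun e => n2 (by nth_rewrite 2 [← e]; group)) (mem_C1.1 (mem_of_mem_of_eq (cj n3.symm) (by group))).symm
      (x := g⁻¹ * x * g) (by simpa [mem_map_conj, mul_assoc] using xN) (hx.conj' g)
    exact ⟨g * m * g⁻¹, by simpa using mem_map_conj.1 m1, by
      rw [show x = g * (g⁻¹ * x * g) * g⁻¹ by group, ← m2]; group⟩
  · obtain ⟨g, rfl⟩ := h.one C ha
    have i := (hs.conj' g).mul_of_comm h.inv (ne sa) (mem_C1.1 (cj c))
    obtain ⟨k, hk, e⟩ := h.conj_all C (hs.conj' g) i (ne sa) (fun e => (hs.conj' g).1 (mul_eq_right.1 e))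
      (cj c) (mul_mem (cj c) (mem_C1_self t))
    have e1 : g * k * g⁻¹ * s * (g * k * g⁻¹)⁻¹ = s * (g * t * g⁻¹) := by
      rw [show g * k * g⁻¹ * s * (g * k * g⁻¹)⁻¹ = g * (k * (g⁻¹ * s * g) * k⁻¹) * g⁻¹ by group, e]; group
    exact ⟨g * k * g⁻¹, by rw [Commute, SemiconjBy, conj_mul, conj_mul, mem_C1.1 hk],
      fun e => ha.1 (mul_eq_left.1 (e1.symm.trans e)), e1 ▸ (Commute.refl s).mul_right c⟩

end Cfsg.Lib.TGC
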