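import Cfsg.Agent.Lib.TGC.TypeG
import Cfsg.Agent.Lib.TGC.TypeAC
import Cfsg.Agent.Lib.TGC.B1
import Cfsg.Agent.Lib.TGC.Nine
import Cfsg.Agent.Lib.TGC.OC
import Cfsg.Agent.Lib.TGC.Sig
import Cfsg.Agent.Lib.Core.Balance

/-! Signalizer functors on connected groups of 2-rank at least three are trivial (plan, section Main). -/

set_option autoImplicit false

namespace Cfsg.Lib.TGC
open Subgroup MulAction Cfsg.Lib Cfsg.Lib.FT Cfsg.Lib.Bender
open scoped commutatorElement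

variable {G Ω : Type*} [Group G] [MulAction G Ω] [Finite G]

theorem Ctx.main (C : Ctx G Ω) : (∃ D : Set G, ZD.ZS D Ω ∧ D.Nonempty) ∨ OCHyp G := by
  by_cases h : ∀ t : G, IsInv t → Two Ω t → ∃ D, Good Ω t D
  · exact C.allG h
  · push Not at h
    obtain ⟨t, ht, h2, hB⟩ := h
    obtain ⟨u, hu, hb⟩ := C.exists_typeB ht h2 hB
    obtain ⟨u, w, T, S, R, Q, J, O, α, h⟩ := C.exists_st ht hu hb
    exact Or.inr (h.oc C)

omit [Finite G] in
theorem smul_coe_eq {M : Subgroup G} {d g : G} : d • (g : G ⧸ M) = g ↔ g⁻¹ * d * g ∈ M := by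
  rw [eq_comm, mul_assoc]; exact QuotientGroup.eq

theorem ea_pair {x y : G} (hx : IsInv x) (hy : IsInv y) (hne : x ≠ y) (hc : Commute x y) :
    IsElementaryAbelian 2 (zpowers x ⊔ zpowers y) ∧ Nat.card ↥(zpowers x ⊔ zpowers y) = 2 ^ 2 := by
  have := ea_zpowers_sup (elemAb_of_card_eq hy.card_zpowers) hx.sq
    (le_C1_iff.1 (zpowers_le.2 (mem_C1.2 hc.symm.eq))) (not_mem_zp hy hx.1 hne)
  rwa [hy.card_zpowers] at this

theorem odd_eq_bot (hO : oddCore G = ⊥) {W K : Subgroup G} (hW : Odd (Nat.card W)) (hK : K.Normal) (h1 : W ≤ K)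
    (h2 : K ≤ N[W]) : W = ⊥ :=
  le_bot_iff.1 ((le_pPrimeCoreOf h1 h2 (Nat.coprime_two_right.2 hW)).trans
    ((pPrimeCoreOf_le_pPrimeCore_of_isSubnormal hK.isSubnormal).trans hO.le))

/-- theorem ZD and the Bender-Suzuki theorem -/
theorem kill_zs (hO : oddCore G = ⊥) (noc : ∀ t : G, IsInv t → ¬ IsIsolated t) {S W : Subgroup G}
    (hS : IsSylowIn 2 S ⊤) (hW : Odd (Nat.card W)) (SW : S ≤ N[W]) {D : Set G} (Z : ZD.ZS D (G ⧸ N[W]))
    (hD : D.Nonempty) : W = ⊥ := by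
  by_cases hM : N[W] = ⊤
  · exact odd_eq_bot hO hW inferInstance le_top hM.ge
  obtain ⟨d, hd⟩ := hD
  obtain ⟨k, -, hk⟩ := exists_conj_mem hS (Z.inv d hd) (mem_top d)
  replace hd := Z.conj d hd k
  generalize k * d * k⁻¹ = d at hd hk
  have hfix : ∀ d ∈ D, d ∈ N[W] → ∀ g : G, g * d * g⁻¹ ∈ N[W] → g ∈ N[W] := fun d hd h1 g h2 => by
    simpa using QuotientGroup.eq.1 (Z.uniq d hd (g⁻¹ : G) (1 : G) (smul_coe_eq.2 (by simpa using h2))
      (smul_coe_eq.2 (by simpa using h1)))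
  have hn : (closure D).Normal := ⟨fun n hn g => by
    induction hn using closure_induction with
    | mem x hx => exact subset_closure (Z.conj x hx g)
    | one => simp
    | mul x y _ _ hx hy => rw [← conj_mul]; exact mul_mem hx hy
    | inv x _ hx => rw [← conj_inv]; exact inv_mem hx⟩
  obtain ⟨U, h1, h2, h3⟩ := Big.bender_local (G := closure D)
    (map_subtype_eq_bot_iff.1 (le_bot_iff.1 ((pPrimeCoreOf_le_pPrimeCore_of_isSubnormal hn.isSubnormal).trans hO.le)))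
    (fun hr => noc d (Z.inv d hd) fun g hg => by_contra fun e => by
      have := ea_pair (Z.inv d hd) ((Z.inv d hd).conj g) (Ne.symm e) hg
      have h := pRankLE_subgroup_iff.1 hr _ (sup_le (zpowers_le.2 (subset_closure hd))
        (zpowers_le.2 (subset_closure (Z.conj d hd g)))) this.1
      omega)
    (Big.zd hM (fun d hd => (Z.inv d hd).orderOf_eq) Z.conj ⟨d, hd, SW hk⟩ hfix
      fun x hx y hy _ _ h1 h2 => Z.prod x hx y hy h1 h2)
  have WD : ∀ w ∈ W, w ∈ closure D → w = 1 := fun w hw hw' => by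
    have := le_pPrimeCoreOf (p := 2) (N := W.subgroupOf (closure D)) (H := (N[W] ⊓ closure D).subgroupOf (closure D))
      (fun x hx => ⟨le_normalizer hx, x.2⟩) (fun x hx => mem_N_of fun y hy => conj_mem (X := W) hx.1 hy)
      ((Nat.coprime_two_right.2 hW).coprime_dvd_left (card_comap_dvd_of_injective _ _ (subtype_injective _)))
    rw [show pPrimeCore 2 _ = ⊥ from h3, Subgroup.map_bot] at this
    exact congrArg Subtype.val (mem_bot.1 (this (show ⟨w, hw'⟩ ∈ W.subgroupOf _ from hw)))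
  have cm : ∀ w ∈ W, ∀ m : closure D, m.1 ∈ N[W] → Commute w m.1 := fun w hw m hm =>
    commutatorElement_eq_one_iff_commute.1 (WD _ (by
      simpa only [commutatorElement_def, mul_assoc] using mul_mem hw (conj_mem hm (inv_mem hw)))
      (mul_mem (hn.conj_mem _ m.2 w) (inv_mem m.2)))
  have fx : ∀ w ∈ W, ∀ g : closure D, w • (g.1 : G ⧸ N[W]) = g.1 := fun w hw g => by
    have wN := le_normalizer hw
    by_cases hg : g.1 ∈ N[W]
    · exact smul_coe_eq.2 (mul_mem (mul_mem (inv_mem hg) wN) hg)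
    obtain ⟨s, hs, m, hm, e⟩ := h2 g ⟨_, hn.conj_mem _ g.2 w⟩ (fun h => hg h.1) fun h => hg (by
      simpa [mul_assoc] using mul_mem (mul_mem (inv_mem wN) h.1) wN)
    have c := cm w hw s (h1.ge (le_normalizer hs)).1
    have e' : w • (g.1 : G ⧸ N[W]) = s.1 • (g.1 : G ⧸ N[W]) := QuotientGroup.eq.2 (by
      have e : w * g.1 * w⁻¹ = s.1 * g.1 * m.1 := congrArg Subtype.val e
      show (w * g.1)⁻¹ * (s.1 * g.1) ∈ N[W]
      rw [show w * g.1 = s.1 * g.1 * (m.1 * w) by rw [← mul_assoc, ← e]; group]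
      simpa [mul_assoc] using mul_mem (inv_mem wN) (inv_mem hm.1))
    have k : ∀ j : ℕ, w ^ j • (g.1 : G ⧸ N[W]) = s.1 ^ j • (g.1 : G ⧸ N[W]) := fun j => by
      induction j with
      | zero => simp
      | succ j ih => rw [pow_succ', mul_smul, ih, ← mul_smul, (c.pow_right j).eq, mul_smul, e', ← mul_smul, pow_succ]
    obtain ⟨i, hi⟩ := U.isPGroup' ⟨s, hs⟩
    refine mem_of_odd_of_pow_two_pow (O := stabilizer G (g.1 : G ⧸ N[W])) (odd_orderOf_of_mem hW hw) (i := i) ?_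
    rw [mem_stabilizer_iff, k, show s.1 ^ 2 ^ i = 1 from congrArg (fun x => x.1.1) hi, one_smul]
  refine odd_eq_bot hO hW (normalCore_normal N[W]) (fun w hw g => ?_) (normalCore_le _)
  obtain ⟨n, hn', h⟩ := exists_conj_mem (hS.inf_of_le_normalizer (N := closure D) le_top le_normalizer_of_normal)
    ((Z.inv d hd).conj g) (subset_closure (Z.conj d hd g))
  have m := hfix d hd (SW hk) (n * g) (by simpa only [mul_assoc, mul_inv_rev] using SW h.1)
  exact mem_of_mem_of_eq (smul_coe_eq.1 (fx _ (conj_mem m hw) ⟨n, hn'⟩)) (by group)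

/-- an odd order subgroup normalized by a Sylow 2-subgroup inducing an equivariant functor is trivial -/
theorem kill {θ : G → Subgroup G} (eqv : ∀ g a, IsInv a → θ (g * a * g⁻¹) = g •ᶜ θ a) (hO : oddCore G = ⊥) (E : E8 G)
    {S W : Subgroup G} (hS : IsSylowIn 2 S ⊤) (hW : Odd (Nat.card W)) (SW : S ≤ N[W])
    (h : ∀ a ∈ S, IsInv a → W ⊓ C1[a] = θ a) : W = ⊥ := by
  have gen : ∀ x ∈ S, ∀ y ∈ S, IsInv x → IsInv y → x ≠ y → Commute x y → ∀ X, θ x ≤ X → θ y ≤ X → θ (x * y) ≤ X →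
      W ≤ X := fun x hx y hy ix iy ne c X h1 h2 h3 =>
    le_of_four ix iy ne c hW (SW hx) (SW hy) (h x hx ix ▸ h1) (h y hy iy ▸ h2)
      (h _ (mul_mem hx hy) (ix.mul_of_comm iy ne c) ▸ h3)
  have cj : ∀ {x y : G}, IsInv x → IsInv y → Commute x y → ∀ {M}, S ≤ M → x ∈ M → y ∈ M →
      ∃ m ∈ M, m * x * m⁻¹ ∈ S ∧ m * y * m⁻¹ ∈ S := fun {x y} ix iy c M hM hx hy => by
    obtain ⟨m, hm, e⟩ := (hS.mono hM le_top).exists_conj_le (four_isPGroup ix iy c) (by
      rintro _ (rfl | rfl | rfl | rfl); exacts [one_mem _, hx, hy, mul_mem hx hy])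
    exact ⟨m, hm, e (conj_mem_conj (mem_four.2 (by simp)) m), e (conj_mem_conj (mem_four.2 (by simp)) m)⟩
  have k1 : ∀ x ∈ S, ∀ y ∈ S, IsInv x → IsInv y → x ≠ y → Commute x y → ∀ g, g * x * g⁻¹ ∈ S → g * y * g⁻¹ ∈ S →
      g ∈ N[W] := fun x hx y hy ix iy ne c g h1 h2 => by
    have k : ∀ a ∈ S, IsInv a → θ (g * a * g⁻¹) ≤ g •ᶜ W := fun a ha ia =>
      eqv g a ia ▸ map_mono (h a ha ia ▸ inf_le_left)
    exact conj_eq_iff_mem_normalizer.1 (eq_of_le_of_card_ge (gen _ h1 _ h2 (ix.conj g) (iy.conj g)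
      (fun e => ne (conj_injective e)) (c.map (MulAut.conj g)) _ (k x hx ix) (k y hy iy)
      (conj_mul (a := x) ▸ k _ (mul_mem hx hy) (ix.mul_of_comm iy ne c))) (card_conj g W).le).symm
  by_cases noc : ∀ t : G, IsInv t → ¬ IsIsolated t
  swap
  · push Not at noc
    obtain ⟨t, ht, hi⟩ := noc
    have z := mem_center_iff.1 (zstar_center hO ht.sq hi)
    have e : W = θ t := by
      rw [← h t (mem_sylow_t ht hS (fun g _ => mem_C1.2 (z g)) trivial) ht, left_eq_inf]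
      exact fun g _ => mem_C1.2 (z g)
    exact odd_eq_bot hO hW inferInstance le_top fun g _ => conj_eq_iff_mem_normalizer.1 (by
      rw [e, ← eqv g t ht, z g, mul_inv_cancel_right])
  have C : Ctx G (G ⧸ N[W]) := ⟨E, hO, fun a b => exists_smul_eq G a b, fun P hP => by
      obtain ⟨k, -, hk⟩ := hS.exists_conj_le hP le_top
      exact ⟨(k⁻¹ : G), fun x hx => smul_coe_eq.2 (by simpa using SW (hk (conj_mem_conj hx k)))⟩,
    fun x y ix iy ne c a b h1 h2 h3 h4 => by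
      obtain ⟨a, rfl⟩ := QuotientGroup.mk_surjective a
      obtain ⟨b, rfl⟩ := QuotientGroup.mk_surjective b
      have c' : ∀ g : G, Commute (g⁻¹ * x * g) (g⁻¹ * y * g) := fun g => by simpa using c.map (MulAut.conj g⁻¹)
      obtain ⟨m, hm, e1, e2⟩ := cj (ix.conj' a) (iy.conj' a) (c' a) SW (smul_coe_eq.1 h1) (smul_coe_eq.1 h2)
      obtain ⟨n, hn, e3, e4⟩ := cj (ix.conj' b) (iy.conj' b) (c' b) SW (smul_coe_eq.1 h3) (smul_coe_eq.1 h4)
      have := k1 _ e3 _ e4 ((ix.conj' b).conj n) ((iy.conj' b).conj n) (fun e => ne (by simpa using e))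
        ((c' b).map (MulAut.conj n)) (m * (a⁻¹ * b) * n⁻¹) (mem_of_mem_of_eq e1 (by group))
        (mem_of_mem_of_eq e2 (by group))
      exact QuotientGroup.eq.2 (by simpa [mul_assoc] using mul_mem (mul_mem (inv_mem hm) this) hn), noc⟩
  rcases C.main with ⟨D, Z, hD⟩ | H
  · exact kill_zs hO noc hS hW SW Z hD
  obtain ⟨x, ix⟩ := E.ex
  obtain ⟨y, iy, ne, c⟩ := E.four x ix
  obtain ⟨m, -, e1, e2⟩ := cj ix iy c le_top trivial trivial
  have k : ∀ a ∈ S, IsInv a → θ a ≤ ⊥ := fun a ha ia => (le_pPrimeCoreOf (h a ha ia ▸ inf_le_right)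
    (fun g hg => conj_eq_iff_mem_normalizer.1 (by rw [← eqv g a ia, cj_C1 hg]))
    (Nat.coprime_two_right.2 (odd_of_le hW (h a ha ia ▸ inf_le_left)))).trans (H.core_eq_bot ia).le
  have ne' := fun e => ne (conj_injective (x := m) e)
  have c' := c.map (MulAut.conj m)
  exact le_bot_iff.1 (gen _ e1 _ e2 (ix.conj m) (iy.conj m) ne' c' _ (k _ e1 (ix.conj m)) (k _ e2 (iy.conj m))
    (k _ (mul_mem e1 e2) ((ix.conj m).mul_of_comm (iy.conj m) ne' c')))

/-- `V` lies in an `E₈` linked to `E` -/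
def Lnk (E V : Subgroup G) : Prop := ∃ F : Subgroup G, IsElementaryAbelian 2 F ∧ 2 ^ 3 ≤ Nat.card F ∧ V ≤ F ∧
  ∀ θ, Fun θ → signalizerClosure F θ = signalizerClosure E θ

theorem Lnk.step {E A B : Subgroup G} (h : KAdj 2 2 A B) (hB : Lnk E B) : Lnk E A := by
  obtain ⟨F, hF, h8, h1, h2⟩ := hB
  by_cases e : A ≤ B
  · exact ⟨F, hF, h8, e.trans h1, h2⟩
  have hAB := elemAb_sup h.1 h.2.2.1 h.symm.le_centralizer
  have := two_mul_card_le (right_lt_sup.2 e)
  refine ⟨A ⊔ B, hAB, by have := h.2.2.2.1; omega, le_sup_left, fun θ hθ => ?_⟩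
  rw [← sigClosure_eq_of_le hAB (hθ.sig hAB) le_sup_right h.2.2.2.1,
    sigClosure_eq_of_le hF (hθ.sig hF) h1 h.2.2.2.1, h2 θ hθ]

/-- every four-subgroup of the Sylow subgroup `S` is linked to `E ≤ S` -/
structure Con (S E : Subgroup G) : Prop where
  syl : IsSylowIn 2 S ⊤
  le : E ≤ S
  ea : IsElementaryAbelian 2 E
  card : 2 ^ 3 ≤ Nat.card E
  lk : ∀ V ≤ S, IsElementaryAbelian 2 V → Nat.card V = 2 ^ 2 → Lnk E V

namespace Con
variable {S E : Subgroup G} (h : Con S E)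
include h

theorem four {x : G} (hx : x ∈ S) (ix : IsInv x) : ∃ y ∈ S, IsInv y ∧ x ≠ y ∧ Commute x y := by
  obtain ⟨z, hz, z2, hc⟩ := pg_exists_fixed_of_order_p h.syl.isPGroup h.syl.isPGroup le_normalizer
    fun e => ix.1 (by simpa [e] using hx)
  by_cases e : x = z
  · obtain ⟨y, hy, hy'⟩ := exists_mem_not_mem_of_card_lt (A := E) (B := zpowers x)
      (by have := h.card; rw [ix.card_zpowers]; omega)
    exact ⟨y, h.le hy, ⟨fun e => hy' (e ▸ one_mem _), (sq y).symm.trans (h.ea.2 y hy)⟩,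
      fun e => hy' (e ▸ mem_zpowers x), e ▸ (hc y (h.le hy)).symm⟩
  · exact ⟨z, hz, isInv_iff_orderOf.2 z2, e, hc x hx⟩

theorem exists_e8 {x y : G} (ix : IsInv x) (iy : IsInv y) (c : Commute x y) :
    ∃ F : Subgroup G, IsElementaryAbelian 2 F ∧ 2 ^ 3 ≤ Nat.card F ∧ x ∈ F ∧ y ∈ F := by
  have k : ∀ {x y : G}, IsInv x → IsInv y → x ≠ y → Commute x y →
      ∃ F : Subgroup G, IsElementaryAbelian 2 F ∧ 2 ^ 3 ≤ Nat.card F ∧ x ∈ F ∧ y ∈ F := fun {x y} ix iy ne c => by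
    obtain ⟨hV, h4⟩ := ea_pair ix iy ne c
    obtain ⟨k, -, hk⟩ := h.syl.exists_conj_le (elemAb_isPGroup hV) le_top
    obtain ⟨F, hF, h8, h1, -⟩ := h.lk _ hk (elemAb_conj hV k) (by rwa [card_conj])
    rw [map_conj_le_iff] at h1
    exact ⟨_, elemAb_conj hF k⁻¹, by rwa [card_conj], h1 (mem_sup_left (mem_zpowers x)),
      h1 (mem_sup_right (mem_zpowers y))⟩
  by_cases e : x = y
  · obtain ⟨m, -, hm⟩ := exists_conj_mem h.syl ix trivial
    obtain ⟨z, -, iz, ne, c⟩ := h.four hm (ix.conj m)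
    obtain ⟨F, hF, h8, h1, -⟩ := k (ix.conj m) iz ne c
    have : x ∈ m⁻¹ •ᶜ F := mem_map_conj.2 (by rwa [inv_inv])
    exact ⟨_, elemAb_conj hF m⁻¹, by rwa [card_conj], this, e ▸ this⟩
  · exact k ix iy e c

theorem e8 : E8 G := by
  have k : ∀ {F V : Subgroup G}, IsElementaryAbelian 2 F → 2 ^ 3 ≤ Nat.card F → Nat.card V ≤ 2 ^ 2 →
      ∃ z ∈ F, IsInv z ∧ z ∉ V := fun {F V} hF h8 h4 => by
    obtain ⟨z, hz, hz'⟩ := exists_mem_not_mem_of_card_lt (A := F) (B := V) (by omega)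
    exact ⟨z, hz, ⟨fun e => hz' (e ▸ one_mem _), (sq z).symm.trans (hF.2 z hz)⟩, hz'⟩
  refine ⟨fun x ix => ?_, fun x y ix iy ne c => ?_, (k (V := ⊥) h.ea h.card (by simp)).imp fun _ h => h.2.1⟩
  · obtain ⟨F, hF, h8, h1, -⟩ := h.exists_e8 ix ix (Commute.refl x)
    obtain ⟨z, hz, iz, hz'⟩ := k (V := zpowers x) hF h8 (by rw [ix.card_zpowers]; omega)
    exact ⟨z, iz, fun e => hz' (e ▸ mem_zpowers x), comm_of_isMulCommutative hF.1 h1 hz⟩
  · obtain ⟨F, hF, h8, h1, h2⟩ := h.exists_e8 ix iy c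
    obtain ⟨z, hz, iz, hz'⟩ := k hF h8 (ea_pair ix iy ne c).2.le
    exact ⟨z, iz, comm_of_isMulCommutative hF.1 hz h1, comm_of_isMulCommutative hF.1 hz h2,
      fun e => hz' (mem_sup_left (e ▸ mem_zpowers z)), fun e => hz' (mem_sup_right (e ▸ mem_zpowers z)),
      fun e => hz' (e ▸ mul_mem_sup (mem_zpowers x) (mem_zpowers y))⟩

theorem eq_bot {θ : G → Subgroup G} (hθ : Fun θ) (hO : oddCore G = ⊥) {a : G} (ha : IsInv a) : θ a = ⊥ := by
  have k : ∀ a ∈ S, IsInv a → signalizerClosure E θ ⊓ C1[a] = θ a := fun a ha ia => by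
    obtain ⟨y, hy, iy, ne, c⟩ := h.four ha ia
    obtain ⟨hV, h4⟩ := ea_pair ia iy ne c
    obtain ⟨F, hF, h8, h1, h2⟩ := h.lk _ (sup_le (zpowers_le.2 ha) (zpowers_le.2 hy)) hV h4
    exact h2 θ hθ ▸ (hθ.cl_spec hF h8).2.2 a (h1 (mem_sup_left (mem_zpowers a))) ia.1
  have := kill hθ.eqv hO h.e8 h.syl (hθ.cl_spec h.ea h.card).1 (fun s hs => by
      have hE := elemAb_conj h.ea s
      obtain ⟨V, h1, h4⟩ := exists_le_card_eq (k := 2) (elemAb_isPGroup hE) (by have := h.card; rw [card_conj]; omega)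
      obtain ⟨F, hF, -, h2, h3⟩ := h.lk V (h1.trans (conj_le_of_mem h.le hs)) (elemAb_mono hE h1) h4
      rw [← conj_eq_iff_mem_normalizer, ← hθ.cl_conj h.ea, ← sigClosure_eq_of_le hE (hθ.sig hE) h1 h4.ge,
        sigClosure_eq_of_le hF (hθ.sig hF) h2 h4.ge, h3 θ hθ]) k
  obtain ⟨m, -, hm⟩ := exists_conj_mem h.syl ha trivial
  rw [← conj_eq_bot_iff (g := m), ← hθ.eqv m a ha, ← k _ hm (ha.conj m), this, bot_inf_eq]

end Con

theorem Lnk.of_conn {E V : Subgroup G} (hE : IsElementaryAbelian 2 E) (h8 : 2 ^ 3 ≤ Nat.card E) {U : Subgroup G}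
    (hU : U ≤ E) (h : Relation.ReflTransGen (KAdj 2 2) V U) : Lnk E V := by
  induction h using Relation.ReflTransGen.head_induction_on with
  | refl => exact ⟨E, hE, h8, hU, fun _ _ => rfl⟩
  | head h _ ih => exact .step h ih

theorem kConn_of_four (h : IsFourConnected G) {U V : Subgroup G} (hU : IsElementaryAbelian 2 U)
    (cU : Nat.card U = 2 ^ 2) (hV : IsElementaryAbelian 2 V) (cV : Nat.card V = 2 ^ 2) :
    Relation.ReflTransGen (KAdj 2 2) U V := by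
  have k : ∀ {U : Subgroup G}, IsElementaryAbelian 2 U → Nat.card U = 2 ^ 2 → IsKleinFour U := fun {U} hU cU =>
    have : Nontrivial U := Finite.one_lt_card_iff_nontrivial.1 (by omega)
    ⟨cU, (Monoid.exponent_eq_prime_iff Nat.prime_two).2 fun g hg => orderOf_eq_prime (Subtype.ext (hU.2 g g.2)) hg⟩
  have k' : ∀ {U : Subgroup G}, IsKleinFour U → IsElementaryAbelian 2 U := fun {U} hU =>
    ⟨IsKleinFour.isMulCommutative, fun a ha => (sq a).trans (congrArg Subtype.val (IsKleinFour.mul_self (⟨a, ha⟩ : U)))⟩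
  exact Relation.ReflTransGen.mono (fun A B e => ⟨k' e.1, e.1.card_four.ge, k' e.2.1, e.2.1.card_four.ge, e.2.2⟩)
    _ _ (h U V (k hU cU) (k hV cV))

theorem exists_con (h3 : ¬ PRankLE 2 2 G)
    (hc : IsFourConnected G ∨ ∃ S : Sylow 2 G, IsFourConnected (S : Subgroup G)) : ∃ S E : Subgroup G, Con S E := by
  obtain ⟨S, hS⟩ : ∃ S : Sylow 2 G, ∀ U V : Subgroup G, U ≤ S → V ≤ S → IsElementaryAbelian 2 U → Nat.card U = 2 ^ 2 →
      IsElementaryAbelian 2 V → Nat.card V = 2 ^ 2 → Relation.ReflTransGen (KAdj 2 2) U V := by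
    rcases hc with hc | ⟨S, hc⟩
    · exact ⟨default, fun U V _ _ => kConn_of_four hc⟩
    · refine ⟨S, fun U V h1 h2 hU cU hV cV => ?_⟩
      have := kConn_map (kConn_of_four hc (elemAb_subgroupOf hU S) (by rwa [card_subgroupOf_of_le h1])
        (elemAb_subgroupOf hV S) (by rwa [card_subgroupOf_of_le h2])) _ (subtype_injective _)
      rwa [map_subgroupOf_eq_of_le h1, map_subgroupOf_eq_of_le h2] at this
  obtain ⟨E, hE, h8⟩ := not_pRankLE_iff.1 h3
  obtain ⟨k, -, hk⟩ := (IsSylowIn.of_sylow_top S).exists_conj_le (elemAb_isPGroup hE) le_top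
  replace hE := elemAb_conj hE k
  rw [← card_conj k] at h8
  obtain ⟨U, h1, h4⟩ := exists_le_card_eq (k := 2) (elemAb_isPGroup hE) (by omega)
  exact ⟨S, _, .of_sylow_top S, hk, hE, h8, fun V hV eV cV =>
    .of_conn hE h8 h1 (hS V U hV (h1.trans hk) eV cV (elemAb_mono hE h1) h4)⟩

theorem con_of_normal {S E : Subgroup G} (hS : IsSylowIn 2 S ⊤) (hE : IsElementaryAbelian 2 E)
    (h8 : 2 ^ 3 ≤ Nat.card E) (ES : E ≤ S) (SE : S ≤ N[E]) : Con S E := by
  refine ⟨hS, ES, hE, h8, fun V hV eV cV => ?_⟩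
  obtain ⟨c, hc, c2, cV'⟩ := pg_exists_fixed_of_order_p (elemAb_isPGroup hE) (elemAb_isPGroup eV) (hV.trans SE)
    fun e => by simp [e] at h8
  have ic := isInv_iff_orderOf.2 c2
  obtain ⟨x, hx, hx'⟩ := exists_mem_not_mem_of_card_lt (A := V) (B := zpowers c) (by rw [ic.card_zpowers]; omega)
  have ix : IsInv x := ⟨fun e => hx' (e ▸ one_mem _), (sq x).symm.trans (eV.2 x hx)⟩
  obtain ⟨hB, h4⟩ := ea_pair ix ic (fun e => hx' (e ▸ mem_zpowers x)) (cV' x hx)
  obtain ⟨F, hF, f8, xF, h1, h2⟩ := exists_e8_of_normalizes hE h8 (SE (hV hx)) ix.sq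
  refine .step (kAdj_of_le_centralizer eV cV.ge hB h4.ge (sup_le (zpowers_le.2 fun y hy =>
    comm_of_isMulCommutative eV.1 hy hx) (zpowers_le.2 cV'))) (.step (kAdj_of_le_centralizer hF (by omega) hB h4.ge
      (sup_le (zpowers_le.2 fun y hy => comm_of_isMulCommutative hF.1 hy xF) (zpowers_le.2 (le_C1_iff.1 (h1.trans
        (sup_le (zpowers_le.2 (mem_C1.2 (cV' x hx))) (le_centralizer_singleton_of_comm hE.1 hc))))))).symm
    ⟨F, hF, f8, le_rfl, fun θ hθ => ?_⟩)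
  rw [← sigClosure_eq_of_le hF (hθ.sig hF) inf_le_right h2, sigClosure_eq_of_le hE (hθ.sig hE) inf_le_left h2]

/-- the main theorem -/
theorem Fun.eq_bot {θ : G → Subgroup G} (hθ : Fun θ) (hO : oddCore G = ⊥) (h3 : ¬ PRankLE 2 2 G)
    (hc : IsFourConnected G ∨ ∃ S : Sylow 2 G, IsFourConnected (S : Subgroup G)) {a : G} (ha : IsInv a) :
    θ a = ⊥ :=
  let ⟨_, _, h⟩ := exists_con h3 hc
  h.eq_bot hθ hO ha

end Cfsg.Lib.TGC
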