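import Cfsg.Agent.Lib.TGC.B2
import Mathlib.GroupTheory.GroupAction.Jordan

/-! Tools for the nine point case: permutations, and dihedral groups modulo `⟨t⟩`. -/

set_option autoImplicit false
set_option linter.unusedSectionVars false

namespace Cfsg.Lib.TGC
open Subgroup MulAction Cfsg.Lib Cfsg.Lib.FT Cfsg.Lib.Bender
open scoped commutatorElement

section Perm
open Equiv Equiv.Perm
variable {X : Type*} [Fintype X] [DecidableEq X]

theorem cycleType_inv_one {y : Perm X} (h2 : y * y = 1) {a : X} (h : ∀ b, y b = b ↔ b = a) :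
    y.cycleType = Multiset.replicate ((Fintype.card X - 1) / 2) 2 := by
  have e := cycleType_of_pow_prime_eq_one (p := 2) (σ := y) (by rwa [pow_two])
  have e1 := sum_cycleType y
  have e2 : y.support = Finset.univ.erase a := by ext b; simp [h]
  rw [e2, Finset.card_erase_of_mem (Finset.mem_univ a), Finset.card_univ, e, Multiset.sum_replicate,
    smul_eq_mul] at e1
  rw [e, ← e1, Nat.mul_div_cancel _ two_pos]

theorem perm_conj {M : Subgroup (Perm X)} (hM : alternatingGroup X ≤ M) {y z : Perm X} (hy : y * y = 1)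
    (hz : z * z = 1) {a b c : X} (ha : ∀ x, y x = x ↔ x = a) (hb : ∀ x, z x = x ↔ x = b) (hc : c ≠ a) :
    ∃ g ∈ M, g * y * g⁻¹ = z := by
  obtain ⟨g, hg⟩ := isConj_iff.1 (isConj_iff_cycleType_eq.2
    ((cycleType_inv_one hy ha).trans (cycleType_inv_one hz hb).symm))
  rcases Int.units_eq_one_or (sign g) with e | e
  · exact ⟨g, hM e, hg⟩
  have e1 : y * swap c (y c) * y⁻¹ = swap c (y c) := by
    rw [← swap_apply_apply, ← mul_apply, hy, one_apply, swap_comm]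
  refine ⟨g * swap c (y c), hM (mem_alternatingGroup.2 ?_), ?_⟩
  · rw [map_mul, e, sign_swap (mt (ha c).1 hc ∘ Eq.symm)]; simp
  · rw [← hg, mul_assoc g, ← mul_inv_eq_iff_eq_mul.1 e1]; group

theorem isThreeCycle_of_odd {σ : Perm X} (ho : Odd (orderOf σ)) (h1 : σ ≠ 1) (h4 : σ.support.card ≤ 4) :
    σ.IsThreeCycle := by
  rw [← sum_cycleType] at h4
  have h3 : ∀ n ∈ σ.cycleType, 3 ≤ n ∧ Odd n := fun n hn => by
    have h2 := ho.of_dvd_nat (dvd_of_mem_cycleType hn)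
    have := two_le_of_mem_cycleType hn
    exact ⟨by rcases h2 with ⟨k, rfl⟩; omega, h2⟩
  obtain ⟨n, hn⟩ := Multiset.exists_mem_of_ne_zero (mt cycleType_eq_zero.1 h1)
  obtain ⟨s, hs⟩ := Multiset.exists_cons_of_mem hn
  rw [IsThreeCycle]
  rw [hs] at h3 h4 ⊢
  rw [Multiset.sum_cons] at h4
  obtain ⟨a1, k, a2⟩ := h3 n (by simp)
  obtain rfl : s = 0 := by
    by_contra e
    obtain ⟨m, hm⟩ := Multiset.exists_mem_of_ne_zero e
    have := (h3 m (by simp [hm])).1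
    have := Multiset.single_le_sum (fun _ _ => Nat.zero_le _) m hm
    omega
  obtain rfl : n = 3 := by omega
  rfl

end Perm

variable {G Ω : Type*} [Group G] [MulAction G Ω] [Finite G]

/-- a square root of `t` and an involution: a common "central involution" modulo `t` -/
theorem exists_dihedral {t q w : G} (ht : IsInv t) (q1 : q * q = t) (hw : IsInv w) (wt : w ∈ C1[t]) :
    ∃ z ∈ C1[t], z ∉ zpowers t ∧ z * z ∈ zpowers t ∧ ⁅w, z⁆ ∈ zpowers t ∧ ⁅q, z⁆ ∈ zpowers t := by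
  have q4 : q ∈ C1[t] := mem_C1.2 (by rw [← q1, mul_assoc])
  have r1 := mul_mem q4 wt
  have q5 : q⁻¹ = q * t := inv_eq_of_mul_eq_one_right (by rw [← mul_assoc, q1, ht.2])
  have c0 : ∀ (g : G) (n : ℕ), g * (q * w) * g⁻¹ = (q * w)⁻¹ * t →
      g * (q * w) ^ n * g⁻¹ = ((q * w) ^ n)⁻¹ * t ^ n := fun g n e => by
    rw [← conj_pow, e, Commute.mul_pow (mem_C1.1 (inv_mem r1)), inv_pow]
  have a2 : w * (q * w) * w⁻¹ = (q * w)⁻¹ * t := by
    rw [mul_inv_rev, q5, hw.inv_eq, mul_assoc, mul_assoc, hw.2, mul_one, mul_assoc, mul_assoc, ht.2, mul_one]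
  have a3 : q * (q * w) * q⁻¹ = (q * w)⁻¹ * t := by
    rw [← mul_assoc, q1, mul_assoc, ← hw.inv_eq, ← mul_inv_rev, hw.inv_eq, mem_C1.1 (inv_mem r1)]
  obtain ⟨k, m, hm, e⟩ := Nat.exists_eq_two_pow_mul_odd (orderOf_pos (q * w)).ne'
  obtain ⟨i, i1, i2⟩ := exists_sq_mem (X := zpowers t) k ((q * w) ^ m) (by
    rw [← pow_mul, mul_comm, ← e, pow_orderOf_eq_one]; exact one_mem _) fun e' => ht.1 (by
      obtain ⟨l, rfl⟩ := hm
      have h1 : (q * w) ^ (2 * l + 1) * w = (q * w) ^ l * q * ((q * w) ^ l)⁻¹ * t ^ l := by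
        rw [mul_assoc _ _ (t ^ l), ← c0 w l a2, hw.inv_eq, two_mul, add_right_comm, pow_add, pow_succ]
        group
      have h2 : (q * w) ^ (2 * l + 1) * w * ((q * w) ^ (2 * l + 1) * w) = 1 := by
        rw [mul_assoc, ← mul_assoc w, zp_comm wt e', mul_assoc, hw.2, mul_one, zp_sq ht e']
      have h3 := pow_mem (mem_zpowers t) l
      have h4 := mul_mem (mul_mem (pow_mem r1 l) q4) (inv_mem (pow_mem r1 l))
      rw [h1, mul_assoc, ← mul_assoc (t ^ l), ← zp_comm h4 h3, mul_assoc _ (t ^ l), zp_sq ht h3, mul_one,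
        conj_mul, q1, mem_C1.1 (pow_mem r1 l), mul_inv_cancel_right] at h2
      exact h2)
  rw [← pow_mul] at i1 i2
  generalize m * i = n at i1 i2
  have c1 : ∀ g : G, g * (q * w) * g⁻¹ = (q * w)⁻¹ * t → ⁅g, (q * w) ^ n⁆ ∈ zpowers t := fun g e => by
    rw [commutatorElement_def, c0 g n e, mul_assoc,
      ← zp_comm (inv_mem (pow_mem r1 n)) (pow_mem (mem_zpowers t) n), ← mul_assoc, ← mul_inv_rev]
    exact mul_mem (inv_mem i2) (pow_mem (mem_zpowers t) n)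
  exact ⟨_, pow_mem r1 n, i1, i2, c1 w a2, c1 q a3⟩

theorem ncard_five {a b c d e : Ω} (h : [a, b, c, d, e].Nodup) : ({a, b, c, d, e} : Set Ω).ncard = 5 := by
  classical
  have := List.toFinset_card_of_nodup h
  rw [← Set.ncard_coe_finset] at this
  simpa using this

theorem mem_of_five {s : Set Ω} (h5 : s.ncard = 5) {a b c d e x : Ω} (h : [a, b, c, d, e].Nodup)
    (hs : ∀ y ∈ [a, b, c, d, e], y ∈ s) (hx : x ∈ s) : x ∈ [a, b, c, d, e] := by
  have := (Set.eq_of_subset_of_ncard_le (s := {a, b, c, d, e}) (fun y hy => hs y (by simpa using hy))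
    (by rw [h5, ncard_five h]) (Set.finite_of_ncard_ne_zero (by omega))).ge hx
  simpa using this

/-- the fixed points of `t` -/
def fixSub (Ω : Type*) [MulAction G Ω] (t : G) : SubMulAction C1[t] Ω where
  carrier := {a | t • a = a}
  smul_mem' := fun g _ h => fix_comm (mem_C1.1 g.2) h

/-- Jordan's theorem for the action of `C(t)` on the fixed points of `t` -/
theorem Ctx.conj_mod (C : Ctx G Ω) {t : G} (ht : IsInv t) {α β : Ω} (hα : t • α = α)
    (tr : ∀ b, t • b = b → b ≠ α → ∃ g ∈ C1[t], g • α = α ∧ g • b = β)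
    {k : G} (hk : k ∈ C1[t]) (ho : Odd (orderOf k)) (h1 : k ∉ Kr Ω C1[t] t)
    (h4 : {a : Ω | t • a = a ∧ k • a ≠ a}.ncard ≤ 4) {y z : G} (hy : IsInv y) (hz : IsInv z) (y1 : y ≠ t)
    (z1 : z ≠ t) (y2 : y ∈ C1[t]) (z2 : z ∈ C1[t]) : ∃ g ∈ C1[t], g * y * g⁻¹ * z ∈ Kr Ω C1[t] t := by
  classical
  have := C.finite
  have := Fintype.ofFinite (fixSub Ω t)
  let φ := toPermHom C1[t] (fixSub Ω t)
  have hφ : ∀ (g : C1[t]) (a : fixSub Ω t), (φ g a : Ω) = (g : G) • (a : Ω) := fun _ _ => rfl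
  have ker : ∀ g : C1[t], φ g = 1 ↔ (g : G) ∈ Kr Ω C1[t] t := fun g => by
    rw [mem_Kr]
    exact ⟨fun e => ⟨g.2, fun a ha => by rw [← hφ g ⟨a, ha⟩, e]; rfl⟩,
      fun e => Equiv.ext fun a => Subtype.ext (e.2 a a.2)⟩
  have t2 : ∀ a b : fixSub Ω t, a ≠ b → ∃ g : C1[t], (g : G) • (a : Ω) = α ∧ (g : G) • (b : Ω) = β := by
    intro a b hab
    obtain ⟨g, g1, g2⟩ := C.tr_t ht a.2 hα
    obtain ⟨l, l1, l2, l3⟩ := tr (g • b.1) (fix_comm g1 b.2) fun e =>
      hab (Subtype.ext (smul_left_cancel g (g2.trans e.symm)))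
    exact ⟨⟨l * g, mul_mem l1 (mem_C1.2 g1)⟩, by simp only [mul_smul, g2, l2], by simp only [mul_smul, l3]⟩
  have pr : IsPreprimitive φ.range (fixSub Ω t) := isPreprimitive_of_is_two_pretransitive
    (is_two_pretransitive_iff.2 fun {a b c d} hab hcd => by
      obtain ⟨g, g1, g2⟩ := t2 a b hab
      obtain ⟨l, l1, l2⟩ := t2 c d hcd
      refine ⟨⟨φ (l⁻¹ * g), _, rfl⟩, Subtype.ext ?_, Subtype.ext ?_⟩
      · change ((l⁻¹ * g : C1[t]) : G) • (a : Ω) = c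
        rw [coe_mul, mul_smul, g1, ← l1, coe_inv, inv_smul_smul]
      · change ((l⁻¹ * g : C1[t]) : G) • (b : Ω) = d
        rw [coe_mul, mul_smul, g2, ← l2, coe_inv, inv_smul_smul])
  have hA := Equiv.Perm.alternatingGroup_le_of_isPreprimitive_of_isThreeCycle_mem pr
    (isThreeCycle_of_odd (σ := φ ⟨k, hk⟩) (ho.of_dvd_nat ((orderOf_map_dvd φ _).trans (orderOf_coe _).symm.dvd))
      (mt (ker _).1 h1) (le_trans (by
        rw [← Set.ncard_coe_finset]
        exact Set.ncard_le_ncard_of_injOn Subtype.val (fun a ha => ⟨a.2, fun e =>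
          Equiv.Perm.mem_support.1 ha (Subtype.ext e)⟩) Subtype.val_injective.injOn) h4)) ⟨_, rfl⟩
  have fx : ∀ {y : G} (hy : IsInv y), y ≠ t → ∀ y2 : y ∈ C1[t], φ ⟨y, y2⟩ * φ ⟨y, y2⟩ = 1 ∧
      ∃ a, ∀ x, φ ⟨y, y2⟩ x = x ↔ x = a := fun {y} hy y1 y2 => by
    refine ⟨by rw [← map_mul, ← map_one φ]; exact congrArg φ (Subtype.ext hy.2), ?_⟩
    obtain ⟨a, ha⟩ := C.fix2 _ (four_isPGroup hy ht (mem_C1.1 y2))
    exact ⟨⟨a, ha t (mem_four.2 (by simp))⟩, fun x => ⟨fun e => Subtype.ext (C.one_inv ht hy y1 (mem_C1.1 y2)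
      _ _ x.2 (ha t (mem_four.2 (by simp))) (congrArg Subtype.val e) (ha y (mem_four.2 (by simp)))),
      fun e => Subtype.ext (e ▸ ha y (mem_four.2 (by simp)))⟩⟩
  obtain ⟨e1, a, ha⟩ := fx hy y1 y2
  obtain ⟨e2, b, hb⟩ := fx hz z1 z2
  obtain ⟨c, hc⟩ : ∃ c, c ≠ a := by
    by_contra hn
    push Not at hn
    exact h1 ((ker ⟨k, hk⟩).1 (Equiv.ext fun x => (hn _).trans (hn _).symm))
  obtain ⟨_, ⟨g, rfl⟩, e⟩ := perm_conj hA e1 e2 ha hb hc
  refine ⟨g, g.2, (ker (g * ⟨y, y2⟩ * g⁻¹ * ⟨z, z2⟩)).1 ?_⟩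
  rw [map_mul, map_mul, map_mul, map_inv, e, e2]

end Cfsg.Lib.TGC
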